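import Mathlib
import Cfsg.Prelude.Def_Characters

/-!
# The class sum for a table of Suzuki type

An abstract table of values of the irreducible characters, and the nonvanishing of the class sum
`∑ χ, conj (χ x)² χ g / χ 1`.
-/

set_option autoImplicit false
set_option linter.unusedSectionVars false
set_option linter.style.haveILetI false
set_option linter.unusedVariables false

namespace Cfsg.Agent.Lib.SzChar.Class

open Cfsg
open scoped ComplexConjugate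
open Finset

section Numeric

variable {q r : ℝ}

/-- Substitution for the numerics. -/
theorem exists_param (hr : 4 ≤ r) (hq : r ^ 2 = 2 * q) :
    ∃ e : ℝ, 0 ≤ e ∧ r = 4 + e ∧ q = (4 + e) ^ 2 / 2 := by
  refine ⟨r - 4, by linarith, by ring, ?_⟩
  have : 4 + (r - 4) = r := by ring
  rw [this]
  linarith

theorem q_ge (hr : 4 ≤ r) (hq : r ^ 2 = 2 * q) : 8 ≤ q := by
  nlinarith

theorem r_le (hr : 4 ≤ r) (hq : r ^ 2 = 2 * q) : 2 * r ≤ q := by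
  nlinarith

theorem D1_pos (hr : 4 ≤ r) (hq : r ^ 2 = 2 * q) : 0 < (q - 1) * (q + 1 - r) := by
  have h1 := q_ge hr hq
  have h2 := r_le hr hq
  apply mul_pos <;> linarith

theorem D2_pos (hr : 4 ≤ r) (hq : r ^ 2 = 2 * q) : 0 < (q - 1) * (q + 1 + r) := by
  have h1 := q_ge hr hq
  apply mul_pos <;> linarith

theorem tt_pos (hr : 4 ≤ r) (hq : r ^ 2 = 2 * q) : 0 < r * (q - 1) / 2 := by
  have h1 := q_ge hr hq
  apply div_pos (mul_pos (by linarith) (by linarith)) (by norm_num)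

theorem N_D (hr : 4 ≤ r) (hq : r ^ 2 = 2 * q) :
    (r + 1) * (q - 3) / (q ^ 2 + 1) < 1 - 1 / q ^ 2 := by
  obtain ⟨e, he, rfl, rfl⟩ := exists_param hr hq
  have h1 : (0 : ℝ) < ((4 + e) ^ 2 / 2) := by positivity
  rw [div_lt_iff₀ (by positivity), ← sub_pos]
  have h2 : (1 - 1 / ((4 + e) ^ 2 / 2) ^ 2) * (((4 + e) ^ 2 / 2) ^ 2 + 1) - (4 + e + 1) * ((4 + e) ^ 2 / 2 - 3) =
     (((4 + e) ^ 2 / 2) ^ 4 - 1 - (4 + e + 1) * ((4 + e) ^ 2 / 2 - 3) * ((4 + e) ^ 2 / 2) ^ 2) / ((4 + e) ^ 2 / 2) ^ 2 := by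
    field_simp
    ring
  rw [h2]
  apply div_pos _ (by positivity)
  ring_nf
  positivity

/-- `r / t = 2 / (q - 1)`. -/
theorem r_over_t (hr : 4 ≤ r) (hq : r ^ 2 = 2 * q) : r / (r * (q - 1) / 2) = 2 / (q - 1) := by
  have h1 := q_ge hr hq
  have h2 : q - 1 ≠ 0 := by linarith
  have h3 : r ≠ 0 := by linarith
  field_simp

theorem inv_q_le (hr : 4 ≤ r) (hq : r ^ 2 = 2 * q) : 1 / q ^ 2 ≤ 1 / 64 := by
  have h1 := q_ge hr hq
  apply one_div_le_one_div_of_le (by norm_num)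
  nlinarith

theorem two_q_le (hr : 4 ≤ r) (hq : r ^ 2 = 2 * q) : 2 / (q - 1) ≤ 2 / 7 := by
  have h1 := q_ge hr hq
  apply div_le_div_of_nonneg_left (by norm_num) (by norm_num) (by linarith)

theorem N_B (hr : 4 ≤ r) (hq : r ^ 2 = 2 * q) :
    (r + 1) * (q - r - 3) / ((q - 1) * (q + 1 + r)) < 1 - 1 / q ^ 2 - r / (r * (q - 1) / 2) := by
  rw [r_over_t hr hq]
  have h1 := inv_q_le hr hq
  have h2 := two_q_le hr hq
  have h3 : (r + 1) * (q - r - 3) / ((q - 1) * (q + 1 + r)) < 1 / 2 := by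
    rw [div_lt_iff₀ (D2_pos hr hq)]
    obtain ⟨e, he, rfl, rfl⟩ := exists_param hr hq
    rw [← sub_pos]
    ring_nf
    positivity
  norm_num at h1 h2 ⊢
  linarith

theorem N_AA (hr : 4 ≤ r) (hq : r ^ 2 = 2 * q) :
    (r - 1) * (q + r - 3) / ((q - 1) * (q + 1 - r)) < 1 - 1 / q ^ 2 := by
  have h1 := inv_q_le hr hq
  have h3 : (r - 1) * (q + r - 3) / ((q - 1) * (q + 1 - r)) < 4 / 5 := by
    rw [div_lt_iff₀ (D1_pos hr hq)]
    obtain ⟨e, he, rfl, rfl⟩ := exists_param hr hq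
    rw [← sub_pos]
    ring_nf
    positivity
  norm_num at h1 ⊢
  linarith

theorem N_A0 (hr : 4 ≤ r) (hq : r ^ 2 = 2 * q) :
    (q + r - 3) / ((q - 1) * (q + 1 - r)) < 1 := by
  have h1 := D1_pos hr hq
  rw [div_lt_one h1]
  have h2 := q_ge hr hq
  have h3 := r_le hr hq
  nlinarith

theorem N_t (hr : 4 ≤ r) (hq : r ^ 2 = 2 * q) : r / (r * (q - 1) / 2) < 1 := by
  rw [r_over_t hr hq]
  have h2 := q_ge hr hq
  rw [div_lt_one (by linarith)]
  linarith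

theorem N_U1 (hr : 4 ≤ r) (hq : r ^ 2 = 2 * q) :
    (r + 1) * ((q - 2) / 2) / (q ^ 2 + 1) + (r + 1) * ((q + r) / 4) / ((q - 1) * (q + 1 - r)) +
      (r + 1) * ((q - r) / 4) / ((q - 1) * (q + 1 + r)) < 1 := by
  have h0 : 0 < q ^ 2 + 1 := by positivity
  have h1 : (r + 1) * ((q - 2) / 2) / (q ^ 2 + 1) < 1 / 4 := by
    rw [div_lt_iff₀ h0]
    obtain ⟨e, he, rfl, rfl⟩ := exists_param hr hq
    rw [← sub_pos]
    ring_nf
    positivity
  have h2 : (r + 1) * ((q + r) / 4) / ((q - 1) * (q + 1 - r)) < 1 / 2 := by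
    rw [div_lt_iff₀ (D1_pos hr hq)]
    obtain ⟨e, he, rfl, rfl⟩ := exists_param hr hq
    rw [← sub_pos]
    ring_nf
    positivity
  have h3 : (r + 1) * ((q - r) / 4) / ((q - 1) * (q + 1 + r)) < 1 / 4 := by
    rw [div_lt_iff₀ (D2_pos hr hq)]
    obtain ⟨e, he, rfl, rfl⟩ := exists_param hr hq
    rw [← sub_pos]
    ring_nf
    positivity
  linarith

theorem N_U2 (hr : 4 ≤ r) (hq : r ^ 2 = 2 * q) :
    (r - 1) * ((q + r) / 4) / ((q - 1) * (q + 1 - r)) < 1 - q / (r * (q - 1) / 2) := by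
  have h2 := q_ge hr hq
  have h0 : q / (r * (q - 1) / 2) = r / (q - 1) := by
    have h3 : q - 1 ≠ 0 := by linarith
    have h4 : r ≠ 0 := by linarith
    field_simp
    linarith
  rw [h0]
  have h1 : r / (q - 1) ≤ 4 / 7 := by
    rw [div_le_iff₀ (by linarith)]
    nlinarith
  have h3 : (r - 1) * ((q + r) / 4) / ((q - 1) * (q + 1 - r)) < 3 / 7 := by
    rw [div_lt_iff₀ (D1_pos hr hq)]
    obtain ⟨e, he, rfl, rfl⟩ := exists_param hr hq
    rw [← sub_pos]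
    ring_nf
    positivity
  norm_num at h1 ⊢
  linarith

end Numeric

universe u

variable {G : Type u} [Group G] [Fintype G] [Fintype (IrrCharacter G)]

variable (G) in
/-- The abstract table. -/
structure Tb where
  one : IrrCharacter G
  st : IrrCharacter G
  th : IrrCharacter G
  thb : IrrCharacter G
  I0 : Finset (IrrCharacter G)
  I1 : Finset (IrrCharacter G)
  I2 : Finset (IrrCharacter G)
  q : ℝ
  r : ℝ
  r4 : 4 ≤ r
  rq : r ^ 2 = 2 * q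
  sum_eq : ∀ f : IrrCharacter G → ℂ, ∑ χ, f χ = f one + f st + f th + f thb +
    ∑ χ ∈ I0, f χ + ∑ χ ∈ I1, f χ + ∑ χ ∈ I2, f χ
  d_one : one.1 1 = 1
  d_st : st.1 1 = ((q ^ 2 : ℝ) : ℂ)
  d_th : th.1 1 = ((r * (q - 1) / 2 : ℝ) : ℂ)
  d_thb : thb.1 1 = ((r * (q - 1) / 2 : ℝ) : ℂ)
  d0 : ∀ χ ∈ I0, χ.1 1 = ((q ^ 2 + 1 : ℝ) : ℂ)
  d1 : ∀ χ ∈ I1, χ.1 1 = (((q - 1) * (q + 1 - r) : ℝ) : ℂ)
  d2 : ∀ χ ∈ I2, χ.1 1 = (((q - 1) * (q + 1 + r) : ℝ) : ℂ)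
  n0 : 2 * (I0.card : ℝ) = q - 2
  n1 : 4 * (I1.card : ℝ) = q + r
  n2 : 4 * (I2.card : ℝ) = q - r

variable (t : Tb G)

/-- A column of type `Lg`. -/
structure IsTwo (v : IrrCharacter G → ℂ) (τ : ℝ) : Prop where
  one : v t.one = 1
  st : v t.st = 0
  thb : v t.thb = conj (v t.th)
  tau : v t.th + v t.thb = (τ : ℂ)
  i0 : ∀ χ ∈ t.I0, v χ = 1
  i1 : ∀ χ ∈ t.I1, v χ = ((-1 - τ : ℝ) : ℂ)
  i2 : ∀ χ ∈ t.I2, v χ = ((-1 + τ : ℝ) : ℂ)

/-- A column of type `Dg`. -/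
structure IsD (v : IrrCharacter G → ℂ) : Prop where
  one : v t.one = 1
  st : v t.st = 1
  th : v t.th = 0
  thb : v t.thb = 0
  i1 : ∀ χ ∈ t.I1, v χ = 0
  i2 : ∀ χ ∈ t.I2, v χ = 0
  norm : ∑ χ ∈ t.I0, ‖v χ‖ ^ 2 ≤ t.q - 3

/-- A column of the first torus. -/
structure IsA (v : IrrCharacter G → ℂ) : Prop where
  one : v t.one = 1
  st : v t.st = -1
  th : v t.th = 1
  thb : v t.thb = 1
  i0 : ∀ χ ∈ t.I0, v χ = 0
  i2 : ∀ χ ∈ t.I2, v χ = 0
  real : ∀ χ ∈ t.I1, conj (v χ) = v χ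
  norm : ∑ χ ∈ t.I1, ‖v χ‖ ^ 2 = t.q + t.r - 3

/-- A column of the second torus. -/
structure IsB (v : IrrCharacter G → ℂ) : Prop where
  one : v t.one = 1
  st : v t.st = -1
  th : v t.th = -1
  thb : v t.thb = -1
  i0 : ∀ χ ∈ t.I0, v χ = 0
  i1 : ∀ χ ∈ t.I1, v χ = 0
  norm : ∑ χ ∈ t.I2, ‖v χ‖ ^ 2 ≤ t.q - t.r - 3

/-- The class sum. -/
noncomputable def T (vx vg : IrrCharacter G → ℂ) : ℂ :=
  ∑ χ : IrrCharacter G, (conj (vx χ * vx χ) / χ.1 1) * vg χ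

/-- The partial sums. -/
noncomputable def P (I : Finset (IrrCharacter G)) (vx vg : IrrCharacter G → ℂ) : ℂ :=
  ∑ χ ∈ I, conj (vx χ * vx χ) * vg χ

theorem sum_div_deg {I : Finset (IrrCharacter G)} {c : ℝ} (h : ∀ χ ∈ I, χ.1 1 = (c : ℂ))
    (vx vg : IrrCharacter G → ℂ) :
    ∑ χ ∈ I, (conj (vx χ * vx χ) / χ.1 1) * vg χ = P I vx vg / (c : ℂ) := by
  unfold P
  rw [Finset.sum_div]
  refine Finset.sum_congr rfl fun χ hχ => ?_
  rw [h χ hχ]
  ring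

theorem T_eq (vx vg : IrrCharacter G → ℂ) :
    T vx vg = conj (vx t.one * vx t.one) * vg t.one +
      conj (vx t.st * vx t.st) / ((t.q ^ 2 : ℝ) : ℂ) * vg t.st +
      (conj (vx t.th * vx t.th) * vg t.th + conj (vx t.thb * vx t.thb) * vg t.thb) /
        ((t.r * (t.q - 1) / 2 : ℝ) : ℂ) +
      P t.I0 vx vg / ((t.q ^ 2 + 1 : ℝ) : ℂ) +
      P t.I1 vx vg / (((t.q - 1) * (t.q + 1 - t.r) : ℝ) : ℂ) +
      P t.I2 vx vg / (((t.q - 1) * (t.q + 1 + t.r) : ℝ) : ℂ) := by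
  unfold T
  rw [t.sum_eq, sum_div_deg t.d0, sum_div_deg t.d1, sum_div_deg t.d2, t.d_one, t.d_st, t.d_th, t.d_thb]
  rw [div_one]
  ring

theorem norm_P_le {I : Finset (IrrCharacter G)} {vx vg : IrrCharacter G → ℂ} {B : ℝ}
    (h : ∀ χ ∈ I, ‖vg χ‖ ≤ B) : ‖P I vx vg‖ ≤ B * ∑ χ ∈ I, ‖vx χ‖ ^ 2 := by
  unfold P
  refine (norm_sum_le _ _).trans ?_
  rw [Finset.mul_sum]
  refine Finset.sum_le_sum fun χ hχ => ?_
  rw [norm_mul, RCLike.norm_conj, norm_mul, ← sq, mul_comm]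
  exact mul_le_mul_of_nonneg_right (h χ hχ) (by positivity)

theorem ne_of_norm_lt {c : ℝ} {E : ℂ} (h : ‖E‖ < c) : (c : ℂ) + E ≠ 0 := by
  intro h0
  have h1 : E = -(c : ℂ) := by linear_combination h0
  rw [h1, norm_neg, Complex.norm_real, Real.norm_eq_abs] at h
  exact absurd (le_abs_self c) (not_le.mpr h)

/-- The single-term bound. -/
theorem single_le {I : Finset (IrrCharacter G)} {v : IrrCharacter G → ℂ} {C B : ℝ}
    (h : ∑ χ ∈ I, ‖v χ‖ ^ 2 ≤ C) (hB : C ≤ B ^ 2) (hB0 : 0 ≤ B) {χ : IrrCharacter G} (hχ : χ ∈ I) :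
    ‖v χ‖ ≤ B := by
  have h1 : ‖v χ‖ ^ 2 ≤ ∑ χ ∈ I, ‖v χ‖ ^ 2 :=
    Finset.single_le_sum (f := fun χ => ‖v χ‖ ^ 2) (fun _ _ => by positivity) hχ
  exact abs_le_of_sq_le_sq' (h1.trans (h.trans hB)) hB0 |>.2

section
variable {t}

theorem IsD.bd {v : IrrCharacter G → ℂ} (h : IsD t v) {χ : IrrCharacter G} (hχ : χ ∈ t.I0) :
    ‖v χ‖ ≤ t.r - 1 := by
  have hr := t.r4
  have hq := t.rq
  refine single_le h.norm ?_ (by linarith) hχ
  nlinarith

theorem IsA.bd {v : IrrCharacter G → ℂ} (h : IsA t v) {χ : IrrCharacter G} (hχ : χ ∈ t.I1) :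
    ‖v χ‖ ≤ t.r - 1 := by
  have hr := t.r4
  have hq := t.rq
  refine single_le h.norm.le ?_ (by linarith) hχ
  obtain ⟨e, he, h1, h2⟩ := exists_param hr hq
  rw [h1, h2, ← sub_nonneg]
  ring_nf
  positivity

theorem IsB.bd {v : IrrCharacter G → ℂ} (h : IsB t v) {χ : IrrCharacter G} (hχ : χ ∈ t.I2) :
    ‖v χ‖ ≤ t.r - 1 := by
  have hr := t.r4
  have hq := t.rq
  refine single_le h.norm ?_ (by linarith) hχ
  obtain ⟨e, he, h1, h2⟩ := exists_param hr hq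
  rw [h1, h2, ← sub_nonneg]
  ring_nf
  positivity

end

/-- The generic form of a column. -/
structure Gen (v : IrrCharacter G → ℂ) (s τg : ℝ) : Prop where
  one : v t.one = 1
  st : v t.st = (s : ℂ)
  tau : v t.th + v t.thb = (τg : ℂ)
  s1 : |s| ≤ 1
  t0 : -t.r ≤ τg
  bd0 : ∀ χ ∈ t.I0, ‖v χ‖ ≤ t.r + 1
  bd1 : ∀ χ ∈ t.I1, ‖v χ‖ ≤ t.r + 1
  bd2 : ∀ χ ∈ t.I2, ‖v χ‖ ≤ t.r + 1

section
variable {t}

theorem IsTwo.gen {v : IrrCharacter G → ℂ} {τ : ℝ} (h : IsTwo t v τ) (hτ : τ = 0 ∨ τ = -t.r) :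
    Gen t v 0 τ := by
  have hr := t.r4
  refine ⟨h.one, by rw [h.st]; simp, h.tau, by simp, ?_, ?_, ?_, ?_⟩
  · rcases hτ with rfl | rfl <;> linarith
  · intro χ hχ
    rw [h.i0 χ hχ, norm_one]
    linarith
  · intro χ hχ
    rw [h.i1 χ hχ, Complex.norm_real, Real.norm_eq_abs, abs_le]
    rcases hτ with rfl | rfl <;> constructor <;> linarith
  · intro χ hχ
    rw [h.i2 χ hχ, Complex.norm_real, Real.norm_eq_abs, abs_le]
    rcases hτ with rfl | rfl <;> constructor <;> linarith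

theorem IsD.gen {v : IrrCharacter G → ℂ} (h : IsD t v) : Gen t v 1 0 := by
  have hr := t.r4
  refine ⟨h.one, by rw [h.st]; simp, by rw [h.th, h.thb]; simp, by simp, by linarith, ?_, ?_, ?_⟩
  · intro χ hχ
    linarith [h.bd hχ]
  · intro χ hχ
    rw [h.i1 χ hχ, norm_zero]
    linarith
  · intro χ hχ
    rw [h.i2 χ hχ, norm_zero]
    linarith

theorem IsA.gen {v : IrrCharacter G → ℂ} (h : IsA t v) : Gen t v (-1) 2 := by
  have hr := t.r4
  refine ⟨h.one, by rw [h.st]; simp, by rw [h.th, h.thb]; norm_num, by simp, by linarith, ?_, ?_, ?_⟩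
  · intro χ hχ
    rw [h.i0 χ hχ, norm_zero]
    linarith
  · intro χ hχ
    linarith [h.bd hχ]
  · intro χ hχ
    rw [h.i2 χ hχ, norm_zero]
    linarith

theorem IsB.gen {v : IrrCharacter G → ℂ} (h : IsB t v) : Gen t v (-1) (-2) := by
  have hr := t.r4
  refine ⟨h.one, by rw [h.st]; simp, by rw [h.th, h.thb]; norm_num, by simp, by linarith, ?_, ?_, ?_⟩
  · intro χ hχ
    rw [h.i0 χ hχ, norm_zero]
    linarith
  · intro χ hχ
    rw [h.i1 χ hχ, norm_zero]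
    linarith
  · intro χ hχ
    linarith [h.bd hχ]

end

section
variable {t}

theorem P_zero_left {I : Finset (IrrCharacter G)} {vx vg : IrrCharacter G → ℂ}
    (h : ∀ χ ∈ I, vx χ = 0) : P I vx vg = 0 := by
  unfold P
  refine Finset.sum_eq_zero fun χ hχ => ?_
  rw [h χ hχ]
  simp

theorem P_zero_right {I : Finset (IrrCharacter G)} {vx vg : IrrCharacter G → ℂ}
    (h : ∀ χ ∈ I, vg χ = 0) : P I vx vg = 0 := by
  unfold P
  refine Finset.sum_eq_zero fun χ hχ => ?_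
  rw [h χ hχ]
  simp

theorem norm_P_div_le {I : Finset (IrrCharacter G)} {vx vg : IrrCharacter G → ℂ} {B C c : ℝ}
    (hc : 0 < c) (hB0 : 0 ≤ B) (h : ∀ χ ∈ I, ‖vg χ‖ ≤ B) (hC : ∑ χ ∈ I, ‖vx χ‖ ^ 2 ≤ C) :
    ‖P I vx vg / (c : ℂ)‖ ≤ B * C / c := by
  rw [norm_div, Complex.norm_real, Real.norm_eq_abs, abs_of_pos hc]
  apply div_le_div_of_nonneg_right _ hc.le
  exact (norm_P_le h).trans (mul_le_mul_of_nonneg_left hC hB0)

theorem s_div_ge {s : ℝ} (hs : |s| ≤ 1) {q : ℝ} (hq : 0 < q) : -(1 / q ^ 2) ≤ s / q ^ 2 := by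
  have h1 := (abs_le.mp hs).1
  have h2 : 0 < q ^ 2 := by positivity
  rw [← neg_div]
  exact div_le_div_of_nonneg_right h1 h2.le

theorem T_D {vx vg : IrrCharacter G → ℂ} {s τg : ℝ} (hx : IsD t vx) (hg : Gen t vg s τg) :
    T vx vg ≠ 0 := by
  have hr := t.r4
  have hq := t.rq
  have hq8 := q_ge hr hq
  have hqpos : 0 < t.q := by linarith
  have h0 : 0 < t.q ^ 2 + 1 := by positivity
  have e : T vx vg = ((1 + s / t.q ^ 2 : ℝ) : ℂ) + P t.I0 vx vg / ((t.q ^ 2 + 1 : ℝ) : ℂ) := by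
    rw [T_eq t, P_zero_left hx.i1, P_zero_left hx.i2, hx.one, hx.st, hx.th, hx.thb, hg.one, hg.st]
    push_cast
    simp
    ring
  rw [e]
  apply ne_of_norm_lt
  have h1 := norm_P_div_le (vx := vx) (vg := vg) (I := t.I0) h0 (by linarith) hg.bd0 hx.norm
  have h2 := N_D hr hq
  have h3 := s_div_ge hg.s1 hqpos
  linarith

theorem T_B {vx vg : IrrCharacter G → ℂ} {s τg : ℝ} (hx : IsB t vx) (hg : Gen t vg s τg) :
    T vx vg ≠ 0 := by
  have hr := t.r4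
  have hq := t.rq
  have hq8 := q_ge hr hq
  have hqpos : 0 < t.q := by linarith
  have h0 := D2_pos hr hq
  have htt := tt_pos hr hq
  have e : T vx vg = ((1 + s / t.q ^ 2 + τg / (t.r * (t.q - 1) / 2) : ℝ) : ℂ) +
      P t.I2 vx vg / (((t.q - 1) * (t.q + 1 + t.r) : ℝ) : ℂ) := by
    rw [T_eq t, P_zero_left hx.i0, P_zero_left hx.i1, hx.one, hx.st, hx.th, hx.thb, hg.one, hg.st]
    have h5 : conj ((-1 : ℂ) * -1) = 1 := by simp
    have h6 : conj ((-1 : ℂ) * -1) * vg t.th + conj ((-1 : ℂ) * -1) * vg t.thb = (τg : ℂ) := by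
      rw [h5, one_mul, one_mul, hg.tau]
    rw [h6, h5]
    push_cast
    simp
    ring
  rw [e]
  apply ne_of_norm_lt
  have h1 := norm_P_div_le (vx := vx) (vg := vg) (I := t.I2) h0 (by linarith) hg.bd2 hx.norm
  have h2 := N_B hr hq
  have h3 := s_div_ge hg.s1 hqpos
  have h4 : -t.r / (t.r * (t.q - 1) / 2) ≤ τg / (t.r * (t.q - 1) / 2) :=
    div_le_div_of_nonneg_right hg.t0 htt.le
  rw [neg_div] at h4
  linarith

theorem T_A_van {vx vg : IrrCharacter G → ℂ} {s τg : ℝ} (hx : IsA t vx) (hg : Gen t vg s τg)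
    (h0 : ∀ χ ∈ t.I1, vg χ = 0) : T vx vg ≠ 0 := by
  have hr := t.r4
  have hq := t.rq
  have hq8 := q_ge hr hq
  have hqpos : 0 < t.q := by linarith
  have htt := tt_pos hr hq
  have e : T vx vg = ((1 + s / t.q ^ 2 + τg / (t.r * (t.q - 1) / 2) : ℝ) : ℂ) := by
    rw [T_eq t, P_zero_left hx.i0, P_zero_left hx.i2, P_zero_right h0, hx.one, hx.st, hx.th, hx.thb,
      hg.one, hg.st]
    have h5 : conj ((-1 : ℂ) * -1) = 1 := by simp
    have h7 : conj ((1 : ℂ) * 1) = 1 := by simp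
    have h6 : conj ((1 : ℂ) * 1) * vg t.th + conj ((1 : ℂ) * 1) * vg t.thb = (τg : ℂ) := by
      rw [h7, one_mul, one_mul, hg.tau]
    rw [h6, h5]
    push_cast
    simp
    ring
  rw [e, Ne, Complex.ofReal_eq_zero]
  apply ne_of_gt
  have h1 := inv_q_le hr hq
  have h2 := two_q_le hr hq
  have h3 := s_div_ge hg.s1 hqpos
  have h4 : -t.r / (t.r * (t.q - 1) / 2) ≤ τg / (t.r * (t.q - 1) / 2) :=
    div_le_div_of_nonneg_right hg.t0 htt.le
  rw [neg_div, r_over_t hr hq] at h4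
  linarith

theorem T_A_A {vx vg : IrrCharacter G → ℂ} (hx : IsA t vx) (hg : IsA t vg) : T vx vg ≠ 0 := by
  have hr := t.r4
  have hq := t.rq
  have hq8 := q_ge hr hq
  have hqpos : 0 < t.q := by linarith
  have htt := tt_pos hr hq
  have h0 := D1_pos hr hq
  have e : T vx vg = ((1 - 1 / t.q ^ 2 + 2 / (t.r * (t.q - 1) / 2) : ℝ) : ℂ) +
      P t.I1 vx vg / (((t.q - 1) * (t.q + 1 - t.r) : ℝ) : ℂ) := by
    rw [T_eq t, P_zero_left hx.i0, P_zero_left hx.i2, hx.one, hx.st, hx.th, hx.thb,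
      hg.one, hg.st, hg.th, hg.thb]
    have h5 : conj ((-1 : ℂ) * -1) = 1 := by simp
    have h7 : conj ((1 : ℂ) * 1) = 1 := by simp
    rw [h5, h7]
    push_cast
    simp
    ring
  rw [e]
  apply ne_of_norm_lt
  have h1 := norm_P_div_le (vx := vx) (vg := vg) (I := t.I1) (B := t.r - 1) (C := t.q + t.r - 3) h0
    (by linarith) (fun χ hχ => hg.bd hχ) hx.norm.le
  have h2 := N_AA hr hq
  have h3 : 0 < 2 / (t.r * (t.q - 1) / 2) := by positivity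
  linarith

theorem T_A_two {vx vg : IrrCharacter G → ℂ} {τ : ℝ} (hx : IsA t vx) (hg : IsTwo t vg τ)
    (hτ : τ = 0 ∨ τ = -t.r) : T vx vg ≠ 0 := by
  have hr := t.r4
  have hq := t.rq
  have hq8 := q_ge hr hq
  have hq2 := r_le hr hq
  have hqpos : 0 < t.q := by linarith
  have htt := tt_pos hr hq
  have h0 := D1_pos hr hq
  have hP : P t.I1 vx vg = (((-1 - τ) * (t.q + t.r - 3) : ℝ) : ℂ) := by
    unfold P
    have h1 : ∀ χ ∈ t.I1, conj (vx χ * vx χ) * vg χ = ((-1 - τ : ℝ) : ℂ) * ((‖vx χ‖ ^ 2 : ℝ) : ℂ) := by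
      intro χ hχ
      have h2 := hx.real χ hχ
      rw [hg.i1 χ hχ, map_mul, h2, mul_comm]
      congr 1
      have h3 := Complex.mul_conj' (vx χ)
      rw [h2] at h3
      rw [h3]
      push_cast
      rfl
    rw [Finset.sum_congr rfl h1, ← Finset.mul_sum, ← Complex.ofReal_sum, hx.norm]
    push_cast
    rfl
  have e : T vx vg = ((1 + τ / (t.r * (t.q - 1) / 2) + (-1 - τ) * (t.q + t.r - 3) / ((t.q - 1) * (t.q + 1 - t.r)) : ℝ) : ℂ) := by
    rw [T_eq t, P_zero_left hx.i0, P_zero_left hx.i2, hP, hx.one, hx.st, hx.th, hx.thb,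
      hg.one, hg.st]
    have h7 : conj ((1 : ℂ) * 1) = 1 := by simp
    have h6 : conj ((1 : ℂ) * 1) * vg t.th + conj ((1 : ℂ) * 1) * vg t.thb = (τ : ℂ) := by
      rw [h7, one_mul, one_mul, hg.tau]
    rw [h6, h7]
    push_cast
    simp
  rw [e, Ne, Complex.ofReal_eq_zero]
  rcases hτ with rfl | rfl
  · apply ne_of_gt
    have h1 := N_A0 hr hq
    have h2 : (-1 - (0 : ℝ)) * (t.q + t.r - 3) / ((t.q - 1) * (t.q + 1 - t.r)) =
        -((t.q + t.r - 3) / ((t.q - 1) * (t.q + 1 - t.r))) := by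
      rw [← neg_div]
      ring
    rw [h2]
    simp only [zero_div]
    linarith
  · apply ne_of_gt
    have h1 := N_t hr hq
    have h2 : 0 ≤ (-1 - -t.r) * (t.q + t.r - 3) / ((t.q - 1) * (t.q + 1 - t.r)) := by
      apply div_nonneg _ h0.le
      apply mul_nonneg <;> linarith
    rw [neg_div]
    linarith

end

/-- A column of an element of order four. -/
structure IsU (v : IrrCharacter G → ℂ) : Prop where
  two : IsTwo t v 0
  y2 : ‖v t.th‖ ^ 2 ≤ t.q / 2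

section
variable {t}

theorem sum_norm_const {I : Finset (IrrCharacter G)} {v : IrrCharacter G → ℂ} {c : ℂ} (hc : ‖c‖ = 1)
    (h : ∀ χ ∈ I, v χ = c) : ∑ χ ∈ I, ‖v χ‖ ^ 2 = (I.card : ℝ) := by
  rw [Finset.sum_congr rfl (fun χ hχ => by rw [h χ hχ, hc])]
  simp

theorem U_parts {vx vg : IrrCharacter G → ℂ} {s τg : ℝ} (hx : IsU t vx) (hg : Gen t vg s τg) :
    T vx vg = ((1 - ‖vx t.th‖ ^ 2 * τg / (t.r * (t.q - 1) / 2) : ℝ) : ℂ) +
      (P t.I0 vx vg / ((t.q ^ 2 + 1 : ℝ) : ℂ) +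
      P t.I1 vx vg / (((t.q - 1) * (t.q + 1 - t.r) : ℝ) : ℂ) +
      P t.I2 vx vg / (((t.q - 1) * (t.q + 1 + t.r) : ℝ) : ℂ)) := by
  have hz : conj (vx t.th) = - vx t.th := by
    have h1 := hx.two.tau
    rw [hx.two.thb] at h1
    simp only [Complex.ofReal_zero] at h1
    linear_combination h1
  have hzz : vx t.th * vx t.th = -((‖vx t.th‖ ^ 2 : ℝ) : ℂ) := by
    have h3 := Complex.mul_conj' (vx t.th)
    rw [hz] at h3
    push_cast
    linear_combination -h3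
  have h4 : conj (vx t.th * vx t.th) = -((‖vx t.th‖ ^ 2 : ℝ) : ℂ) := by
    rw [map_mul, hz]
    linear_combination hzz
  have h5 : conj (vx t.thb * vx t.thb) = -((‖vx t.th‖ ^ 2 : ℝ) : ℂ) := by
    rw [hx.two.thb, map_mul, Complex.conj_conj]
    exact hzz
  rw [T_eq t, hx.two.one, hx.two.st, hg.one, h4, h5]
  have h6 : -((‖vx t.th‖ ^ 2 : ℝ) : ℂ) * vg t.th + -((‖vx t.th‖ ^ 2 : ℝ) : ℂ) * vg t.thb =
      -((‖vx t.th‖ ^ 2 : ℝ) : ℂ) * (τg : ℂ) := by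
    rw [← hg.tau]
    ring
  rw [h6]
  push_cast
  simp
  ring

theorem T_U_neg {vx vg : IrrCharacter G → ℂ} {s τg : ℝ} (hx : IsU t vx) (hg : Gen t vg s τg)
    (hτ : τg ≤ 0) : T vx vg ≠ 0 := by
  have hr := t.r4
  have hq := t.rq
  have hq8 := q_ge hr hq
  have hq2 := r_le hr hq
  have hqpos : 0 < t.q := by linarith
  have htt := tt_pos hr hq
  have hD1 := D1_pos hr hq
  have hD2 := D2_pos hr hq
  have hQ : 0 < t.q ^ 2 + 1 := by positivity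
  rw [U_parts hx hg]
  apply ne_of_norm_lt
  have c0 : (t.I0.card : ℝ) = (t.q - 2) / 2 := by linarith [t.n0]
  have c1 : (t.I1.card : ℝ) = (t.q + t.r) / 4 := by linarith [t.n1]
  have c2 : (t.I2.card : ℝ) = (t.q - t.r) / 4 := by linarith [t.n2]
  have h0 : ‖P t.I0 vx vg / ((t.q ^ 2 + 1 : ℝ) : ℂ)‖ ≤ (t.r + 1) * ((t.q - 2) / 2) / (t.q ^ 2 + 1) :=
    norm_P_div_le hQ (by linarith) hg.bd0
      (le_of_eq (by rw [sum_norm_const (c := 1) (by simp) hx.two.i0, c0]))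
  have h1 : ‖P t.I1 vx vg / (((t.q - 1) * (t.q + 1 - t.r) : ℝ) : ℂ)‖ ≤
      (t.r + 1) * ((t.q + t.r) / 4) / ((t.q - 1) * (t.q + 1 - t.r)) :=
    norm_P_div_le hD1 (by linarith) hg.bd1
      (le_of_eq (by rw [sum_norm_const (c := -1) (by simp) (fun χ hχ => by rw [hx.two.i1 χ hχ]; simp), c1]))
  have h2 : ‖P t.I2 vx vg / (((t.q - 1) * (t.q + 1 + t.r) : ℝ) : ℂ)‖ ≤
      (t.r + 1) * ((t.q - t.r) / 4) / ((t.q - 1) * (t.q + 1 + t.r)) :=
    norm_P_div_le hD2 (by linarith) hg.bd2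
      (le_of_eq (by rw [sum_norm_const (c := -1) (by simp) (fun χ hχ => by rw [hx.two.i2 χ hχ]; simp), c2]))
  have h3 := N_U1 hr hq
  have h4 : ‖vx t.th‖ ^ 2 * τg / (t.r * (t.q - 1) / 2) ≤ 0 :=
    div_nonpos_of_nonpos_of_nonneg (mul_nonpos_of_nonneg_of_nonpos (by positivity) hτ) htt.le
  have h5 := norm_add₃_le (a := P t.I0 vx vg / ((t.q ^ 2 + 1 : ℝ) : ℂ))
    (b := P t.I1 vx vg / (((t.q - 1) * (t.q + 1 - t.r) : ℝ) : ℂ))
    (c := P t.I2 vx vg / (((t.q - 1) * (t.q + 1 + t.r) : ℝ) : ℂ))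
  linarith

theorem T_U_A {vx vg : IrrCharacter G → ℂ} (hx : IsU t vx) (hg : IsA t vg) : T vx vg ≠ 0 := by
  have hr := t.r4
  have hq := t.rq
  have hq8 := q_ge hr hq
  have hq2 := r_le hr hq
  have hqpos : 0 < t.q := by linarith
  have htt := tt_pos hr hq
  have hD1 := D1_pos hr hq
  rw [U_parts hx hg.gen, P_zero_right hg.i0, P_zero_right hg.i2, zero_div, zero_div, zero_add, add_zero]
  apply ne_of_norm_lt
  have c1 : (t.I1.card : ℝ) = (t.q + t.r) / 4 := by linarith [t.n1]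
  have h1 : ‖P t.I1 vx vg / (((t.q - 1) * (t.q + 1 - t.r) : ℝ) : ℂ)‖ ≤
      (t.r - 1) * ((t.q + t.r) / 4) / ((t.q - 1) * (t.q + 1 - t.r)) :=
    norm_P_div_le hD1 (by linarith) (fun χ hχ => hg.bd hχ)
      (le_of_eq (by rw [sum_norm_const (c := -1) (by simp) (fun χ hχ => by rw [hx.two.i1 χ hχ]; simp), c1]))
  have h3 := N_U2 hr hq
  have h4 : ‖vx t.th‖ ^ 2 * 2 / (t.r * (t.q - 1) / 2) ≤ t.q / (t.r * (t.q - 1) / 2) := by
    apply div_le_div_of_nonneg_right _ htt.le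
    have := hx.y2
    linarith
  linarith

/-- The main nonvanishing. -/
theorem T_ne {vx vg : IrrCharacter G → ℂ}
    (hx : IsU t vx ∨ IsD t vx ∨ IsA t vx ∨ IsB t vx)
    (hg : (∃ τ, IsTwo t vg τ ∧ (τ = 0 ∨ τ = -t.r)) ∨ IsD t vg ∨ IsA t vg ∨ IsB t vg) :
    T vx vg ≠ 0 := by
  have hr := t.r4
  have hgen : ∃ s τg, Gen t vg s τg := by
    rcases hg with ⟨τ, h1, h2⟩ | h1 | h1 | h1
    · exact ⟨_, _, h1.gen h2⟩
    · exact ⟨_, _, h1.gen⟩
    · exact ⟨_, _, h1.gen⟩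
    · exact ⟨_, _, h1.gen⟩
  obtain ⟨s, τg, hG⟩ := hgen
  rcases hx with hx | hx | hx | hx
  · rcases hg with ⟨τ, h1, h2⟩ | h1 | h1 | h1
    · refine T_U_neg hx (h1.gen h2) ?_
      rcases h2 with rfl | rfl <;> linarith
    · exact T_U_neg hx h1.gen (le_refl _)
    · exact T_U_A hx h1
    · exact T_U_neg hx h1.gen (by norm_num)
  · exact T_D hx hG
  · rcases hg with ⟨τ, h1, h2⟩ | h1 | h1 | h1
    · exact T_A_two hx h1 h2
    · exact T_A_van hx h1.gen h1.i1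
    · exact T_A_A hx h1
    · exact T_A_van hx h1.gen h1.i1
  · exact T_B hx hG

end

end Cfsg.Agent.Lib.SzChar.Class
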