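import Mathlib
import Cfsg.Agent.Lib.SzChar.Num

/-!
# Numerical core, full data
-/

set_option autoImplicit false
set_option linter.unusedSectionVars false

namespace Cfsg.Agent.Lib.SzChar.Num2

open Finset Cfsg.Agent.Lib.SzChar.Num

section Main

variable {X : Type*} [Fintype X] [DecidableEq X]
  {L0 L1 L2 : Type*} [Fintype L0] [Fintype L1] [Fintype L2] [DecidableEq L0] [DecidableEq L1]
  [DecidableEq L2]

set_option maxHeartbeats 4000000 in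
/-- The main numerical theorem, with all the data. -/
theorem main2 (d : X → ℤ) (hd : ∀ χ, 1 ≤ d χ) (one st th thb : X)
    (h12 : one ≠ st) (h13 : one ≠ th) (h14 : one ≠ thb) (h23 : st ≠ th) (h24 : st ≠ thb)
    (h34 : th ≠ thb) (q r t : ℤ) (hq : 8 ≤ q) (hr : r ^ 2 = 2 * q) (hr0 : 0 < r)
    (hsum : ∑ χ, d χ ^ 2 = q ^ 2 * (q ^ 2 + 1) * (q - 1)) (d1 : d one = 1) (dst : d st = q ^ 2)
    (dth : d th = t) (dthb : d thb = t)
    (g0 : L0 → X → ℤ) (g1 : L1 → X → ℤ) (g2 : L2 → X → ℤ)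
    (rel0 : L0 → L0 → Prop) (rel1 : L1 → L1 → Prop) (rel2 : L2 → L2 → Prop)
    (F0 : FamHyp g0 rel0 d 2) (F1 : FamHyp g1 rel1 d 4) (F2 : FamHyp g2 rel2 d 4)
    (c0 : (Fintype.card L0 : ℤ) = q - 2) (c1 : (Fintype.card L1 : ℤ) = q + r)
    (c2 : (Fintype.card L2 : ℤ) = q - r)
    (g0one : ∀ l, g0 l one = -1) (g1one : ∀ l, g1 l one = -1) (g2one : ∀ l, g2 l one = -1)
    (g0st : ∀ l, g0 l st = -1) (g1st : ∀ l, g1 l st = 1) (g2st : ∀ l, g2 l st = 1)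
    (g0b : ∀ l, g0 l thb = g0 l th) (g1b : ∀ l, g1 l thb = g1 l th) (g2b : ∀ l, g2 l thb = g2 l th)
    (o01 : ∀ l k, ∑ χ, g0 l χ * g1 k χ = 0) (o02 : ∀ l k, ∑ χ, g0 l χ * g2 k χ = 0)
    (o12 : ∀ l k, ∑ χ, g1 l χ * g2 k χ = 0)
    (v0 : (∀ l, g0 l th = 0) → (q - 1) ∣ t) (v1 : (∀ l, g1 l th = 0) → (q + r + 1) ∣ t)
    (v2 : (∀ l, g2 l th = 0) → (q - r + 1) ∣ t)
    (cop1 : IsCoprime (q - 1) (q ^ 2 + 1)) (cop2 : IsCoprime (q + r + 1) (q - r + 1)) :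
    ∃ (E0 : L0 → X) (E1 : L1 → X) (E2 : L2 → X),
      (∀ l, g0 l (E0 l) = 1) ∧ (∀ l, g1 l (E1 l) = -1) ∧ (∀ l, g2 l (E2 l) = -1) ∧
      (∀ l χ, χ ≠ one → χ ≠ st → χ ≠ E0 l → g0 l χ = 0) ∧
      (∀ l χ, χ ≠ one → χ ≠ st → χ ≠ th → χ ≠ thb → χ ≠ E1 l → g1 l χ = 0) ∧
      (∀ l χ, χ ≠ one → χ ≠ st → χ ≠ th → χ ≠ thb → χ ≠ E2 l → g2 l χ = 0) ∧
      (∀ l k, E0 l = E0 k → rel0 l k) ∧ (∀ l k, E1 l = E1 k → rel1 l k) ∧
      (∀ l k, E2 l = E2 k → rel2 l k) ∧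
      (∀ l k, E0 l ≠ E1 k) ∧ (∀ l k, E0 l ≠ E2 k) ∧ (∀ l k, E1 l ≠ E2 k) ∧
      (∀ l, E0 l ≠ one ∧ E0 l ≠ st ∧ E0 l ≠ th ∧ E0 l ≠ thb) ∧
      (∀ l, E1 l ≠ one ∧ E1 l ≠ st ∧ E1 l ≠ th ∧ E1 l ≠ thb) ∧
      (∀ l, E2 l ≠ one ∧ E2 l ≠ st ∧ E2 l ≠ th ∧ E2 l ≠ thb) ∧
      (∀ χ, χ = one ∨ χ = st ∨ χ = th ∨ χ = thb ∨ (∃ l, χ = E0 l) ∨ (∃ l, χ = E1 l) ∨ (∃ l, χ = E2 l)) ∧
      (∀ l, d (E0 l) = q ^ 2 + 1) ∧ (∀ l, d (E1 l) = (q - 1) * (q + 1 - r)) ∧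
      (∀ l, d (E2 l) = (q - 1) * (q + 1 + r)) ∧
      2 * t = r * (q - 1) ∧ (∀ l, g0 l th = 0) ∧ (∀ l, g1 l th = -1) ∧ (∀ l, g2 l th = 1) ∧
      (2 * (((univ : Finset L0).image E0).card : ℤ) = q - 2) ∧
      (4 * (((univ : Finset L1).image E1).card : ℤ) = q + r) ∧
      (4 * (((univ : Finset L2).image E2).card : ℤ) = q - r) := by
  classical
  obtain ⟨hrq, hr2⟩ := rq_of hq hr hr0
  have hL0 : Nonempty L0 := by
    apply Fintype.card_pos_iff.mp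
    have : (0 : ℤ) < Fintype.card L0 := by rw [c0]; linarith
    exact_mod_cast this
  have hL1 : Nonempty L1 := by
    apply Fintype.card_pos_iff.mp
    have : (0 : ℤ) < Fintype.card L1 := by rw [c1]; linarith
    exact_mod_cast this
  have hL2 : Nonempty L2 := by
    apply Fintype.card_pos_iff.mp
    have : (0 : ℤ) < Fintype.card L2 := by rw [c2]; linarith
    exact_mod_cast this
  obtain ⟨l0⟩ := hL0
  obtain ⟨l1⟩ := hL1
  obtain ⟨l2⟩ := hL2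
  have ht1 : 1 ≤ t := dth ▸ hd th
  have hk1 : ∀ l k, g1 l th = g1 k th :=
    const_of_fam F1 h34 (hd th) (by rw [dth, dthb]) g1b
  have hk2 : ∀ l k, g2 l th = g2 k th :=
    const_of_fam F2 h34 (hd th) (by rw [dth, dthb]) g2b
  set b1 := g1 l1 th with hb1
  set b2 := g2 l2 th with hb2
  have hg1th : ∀ l, g1 l th = b1 := fun l => hk1 l l1
  have hg2th : ∀ l, g2 l th = b2 := fun l => hk2 l l2
  -- the four special characters
  set Sp : Finset X := {one, st, th, thb} with hSp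
  have hSpsum : ∀ f : X → ℤ, ∑ χ ∈ Sp, f χ = f one + f st + f th + f thb := by
    intro f
    rw [hSp, sum_insert (by simp [h12, h13, h14]), sum_insert (by simp [h23, h24]),
      sum_insert (by simp [h34]), sum_singleton]
    ring
  have hsplit : ∀ f : X → ℤ, ∑ χ, f χ = f one + f st + f th + f thb + ∑ χ ∈ Spᶜ, f χ := by
    intro f
    rw [← sum_add_sum_compl Sp, hSpsum]
  have hrest : ∀ f : X → ℤ, 0 ≤ ∑ χ ∈ Spᶜ, f χ ^ 2 := fun f => sum_nonneg (fun _ _ => sq_nonneg _)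
  -- `g0` vanishes at `th`
  have hg0th : ∀ l, g0 l th = 0 := by
    intro l
    have h1 := hsplit (fun χ => g0 l χ ^ 2)
    rw [F0.self l, g0one, g0st, g0b] at h1
    have h2 := hrest (g0 l)
    have h3 : g0 l th ^ 2 ≤ 0 := by
      push_cast at h1
      norm_num at h1
      linarith
    have h4 : g0 l th ^ 2 = 0 := le_antisymm h3 (sq_nonneg _)
    exact pow_eq_zero_iff (two_ne_zero) |>.mp h4
  -- norm bounds
  have hn1 : ∀ l, ∑ χ ∈ Spᶜ, g1 l χ ^ 2 = 3 - 2 * b1 ^ 2 := by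
    intro l
    have h1 := hsplit (fun χ => g1 l χ ^ 2)
    rw [F1.self l, g1one, g1st, g1b, hg1th] at h1
    push_cast at h1
    linarith
  have hn2 : ∀ l, ∑ χ ∈ Spᶜ, g2 l χ ^ 2 = 3 - 2 * b2 ^ 2 := by
    intro l
    have h1 := hsplit (fun χ => g2 l χ ^ 2)
    rw [F2.self l, g2one, g2st, g2b, hg2th] at h1
    push_cast at h1
    linarith
  have hb1le : b1 ^ 2 ≤ 1 := by
    have h1 := hn1 l1
    have h2 := hrest (g1 l1)
    omega
  have hb2le : b2 ^ 2 ≤ 1 := by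
    have h1 := hn2 l2
    have h2 := hrest (g2 l2)
    omega
  -- cross term
  have hcross : ∑ χ ∈ Spᶜ, g1 l1 χ * g2 l2 χ = -2 - 2 * (b1 * b2) := by
    have h1 := hsplit (fun χ => g1 l1 χ * g2 l2 χ)
    rw [o12 l1 l2, g1one, g2one, g1st, g2st, g1b, g2b, hg1th, hg2th] at h1
    linarith
  have hcs : (-2 - 2 * (b1 * b2)) ^ 2 ≤ (3 - 2 * b1 ^ 2) * (3 - 2 * b2 ^ 2) := by
    have h1 := sum_mul_sq_le_sq_mul_sq Spᶜ (g1 l1) (g2 l2)
    rwa [hcross, hn1, hn2] at h1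
  have hb1r : b1 = -1 ∨ b1 = 0 ∨ b1 = 1 := sq_le_one_cases hb1le
  have hb2r : b2 = -1 ∨ b2 = 0 ∨ b2 = 1 := sq_le_one_cases hb2le
  have htsq : 2 * t ^ 2 + 1 + q ^ 4 ≤ q ^ 2 * (q ^ 2 + 1) * (q - 1) := by
    have h1 := hsplit (fun χ => d χ ^ 2)
    rw [hsum, d1, dst, dth, dthb] at h1
    have h2 := hrest d
    linarith
  -- exclude `b1 = b2 = 0`
  have hnot00 : ¬ (b1 = 0 ∧ b2 = 0) := by
    rintro ⟨h1, h2⟩
    have e0 := v0 hg0th
    have e1 := v1 (fun l => by rw [hg1th, h1])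
    have e2 := v2 (fun l => by rw [hg2th, h2])
    have e3 : (q + r + 1) * (q - r + 1) ∣ t := cop2.mul_dvd e1 e2
    have e4 : (q + r + 1) * (q - r + 1) = q ^ 2 + 1 := by linear_combination -hr
    rw [e4] at e3
    have e5 : (q - 1) * (q ^ 2 + 1) ∣ t := cop1.mul_dvd e0 e3
    exact no00 hq (Int.le_of_dvd (by omega) e5) htsq
  have hb12 : b1 * b2 = -1 := by
    rcases hb1r with h1 | h1 | h1 <;> rcases hb2r with h2 | h2 | h2
    all_goals first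
      | (exfalso; exact hnot00 ⟨h1, h2⟩)
      | (exfalso; rw [h1, h2] at hcs; norm_num at hcs; done)
      | (rw [h1, h2]; norm_num)
  have hb2eq : b2 = -b1 := by
    rcases hb1r with h | h | h <;> rcases hb2r with h' | h' | h'
    all_goals first
      | (exfalso; rw [h, h'] at hb12; norm_num at hb12; done)
      | (rw [h, h'] <;> norm_num)
  have hb1sq : b1 ^ 2 = 1 := by
    rw [hb2eq] at hb12
    linarith
  have hb2sq : b2 ^ 2 = 1 := by
    rw [hb2eq, neg_sq]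
    exact hb1sq
  -- the exceptional characters
  have hsp1 : ∀ l k, ∑ χ ∈ Sp, g1 l χ * g1 k χ = ((4 : ℕ) : ℤ) := by
    intro l k
    rw [hSpsum, g1one, g1one, g1st, g1st, g1b, g1b, hg1th, hg1th]
    push_cast
    linarith
  have hsp2 : ∀ l k, ∑ χ ∈ Sp, g2 l χ * g2 k χ = ((4 : ℕ) : ℤ) := by
    intro l k
    rw [hSpsum, g2one, g2one, g2st, g2st, g2b, g2b, hg2th, hg2th]
    push_cast
    linarith
  obtain ⟨E1, hE1, hE1sq, hE1z, hE1rel⟩ := exists_exc F1 Sp hsp1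
  obtain ⟨E2, hE2, hE2sq, hE2z, hE2rel⟩ := exists_exc F2 Sp hsp2
  set Sp0 : Finset X := {one, st} with hSp0
  have hsp0 : ∀ l k, ∑ χ ∈ Sp0, g0 l χ * g0 k χ = ((2 : ℕ) : ℤ) := by
    intro l k
    rw [hSp0, sum_pair h12, g0one, g0one, g0st, g0st]
    norm_num
  obtain ⟨E0, hE0, hE0sq, hE0z, hE0rel⟩ := exists_exc F0 Sp0 hsp0
  -- degrees
  have hdE0 : ∀ l, d (E0 l) = q ^ 2 + 1 := by
    intro l
    have h1 := sum_of_support Sp0 (E0 l) (hE0 l) (g0 l) (hE0z l) d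
    rw [F0.deg l, hSp0, sum_pair h12, g0one, g0st, d1, dst] at h1
    have h2 := hE0sq l
    have h3 := hd (E0 l)
    have h4 : g0 l (E0 l) = 1 ∨ g0 l (E0 l) = -1 := by
      have h5 : (g0 l (E0 l) - 1) * (g0 l (E0 l) + 1) = 0 := by linarith
      rcases mul_eq_zero.mp h5 with h6 | h6
      · exact Or.inl (by linarith)
      · exact Or.inr (by linarith)
    rcases h4 with h4 | h4 <;> rw [h4] at h1
    · linarith
    · linarith [sq_nonneg q]
  have hdE1 : ∀ l, d (E1 l) ^ 2 = (1 - q ^ 2 - 2 * b1 * t) ^ 2 := by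
    intro l
    have h1 := sum_of_support Sp (E1 l) (hE1 l) (g1 l) (hE1z l) d
    rw [F1.deg l, hSpsum, g1one, g1st, g1b, hg1th, d1, dst, dth, dthb] at h1
    have h2 : g1 l (E1 l) * d (E1 l) = 1 - q ^ 2 - 2 * b1 * t := by linarith
    calc d (E1 l) ^ 2 = (g1 l (E1 l)) ^ 2 * d (E1 l) ^ 2 := by rw [hE1sq]; ring
      _ = (g1 l (E1 l) * d (E1 l)) ^ 2 := by ring
      _ = _ := by rw [h2]
  have hdE2 : ∀ l, d (E2 l) ^ 2 = (1 - q ^ 2 - 2 * b2 * t) ^ 2 := by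
    intro l
    have h1 := sum_of_support Sp (E2 l) (hE2 l) (g2 l) (hE2z l) d
    rw [F2.deg l, hSpsum, g2one, g2st, g2b, hg2th, d1, dst, dth, dthb] at h1
    have h2 : g2 l (E2 l) * d (E2 l) = 1 - q ^ 2 - 2 * b2 * t := by linarith
    calc d (E2 l) ^ 2 = (g2 l (E2 l)) ^ 2 * d (E2 l) ^ 2 := by rw [hE2sq]; ring
      _ = (g2 l (E2 l) * d (E2 l)) ^ 2 := by ring
      _ = _ := by rw [h2]
  -- disjointness
  have hne12 : ∀ l k, E1 l ≠ E2 k := by
    intro l k he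
    have h1 := sum_of_support Sp (E1 l) (hE1 l) (g1 l) (hE1z l) (g2 k)
    rw [o12 l k, hSpsum, g1one, g2one, g1st, g2st, g1b, g2b, hg1th, hg2th] at h1
    have h2 : g1 l (E1 l) * g2 k (E1 l) = 0 := by linarith
    have h3 : g2 k (E1 l) ^ 2 = 1 := by rw [he]; exact hE2sq k
    have h5 : (g1 l (E1 l) * g2 k (E1 l)) ^ 2 = 1 := by rw [mul_pow, h3, hE1sq l]; norm_num
    rw [h2] at h5
    norm_num at h5
  have hne01 : ∀ l k, E0 l ≠ E1 k := by
    intro l k he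
    have h1 := sum_of_support Sp0 (E0 l) (hE0 l) (g0 l) (hE0z l) (g1 k)
    rw [o01 l k, hSp0, sum_pair h12, g0one, g1one, g0st, g1st] at h1
    have h2 : g0 l (E0 l) * g1 k (E0 l) = 0 := by linarith
    have h3 : g1 k (E0 l) ^ 2 = 1 := by rw [he]; exact hE1sq k
    have h5 : (g0 l (E0 l) * g1 k (E0 l)) ^ 2 = 1 := by rw [mul_pow, h3, hE0sq l]; norm_num
    rw [h2] at h5
    norm_num at h5
  have hne02 : ∀ l k, E0 l ≠ E2 k := by
    intro l k he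
    have h1 := sum_of_support Sp0 (E0 l) (hE0 l) (g0 l) (hE0z l) (g2 k)
    rw [o02 l k, hSp0, sum_pair h12, g0one, g2one, g0st, g2st] at h1
    have h2 : g0 l (E0 l) * g2 k (E0 l) = 0 := by linarith
    have h3 : g2 k (E0 l) ^ 2 = 1 := by rw [he]; exact hE2sq k
    have h5 : (g0 l (E0 l) * g2 k (E0 l)) ^ 2 = 1 := by rw [mul_pow, h3, hE0sq l]; norm_num
    rw [h2] at h5
    norm_num at h5
  have hE0Sp : ∀ l, E0 l ∉ Sp := by
    intro l hmem
    rw [hSp] at hmem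
    simp only [mem_insert, mem_singleton] at hmem
    have h0 := hE0 l
    rw [hSp0] at h0
    simp only [mem_insert, mem_singleton, not_or] at h0
    rcases hmem with h | h | h | h
    · exact h0.1 h
    · exact h0.2 h
    · have h3 := hE0sq l
      rw [h, hg0th] at h3
      norm_num at h3
    · have h3 := hE0sq l
      rw [h, g0b, hg0th] at h3
      norm_num at h3
  -- images
  set I0 := (univ : Finset L0).image E0 with hI0
  set I1 := (univ : Finset L1).image E1 with hI1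
  set I2 := (univ : Finset L2).image E2 with hI2
  have hc0 : q - 2 ≤ 2 * (I0.card : ℤ) := by
    have := card_le_image F0 E0 hE0rel
    rw [← c0]
    exact_mod_cast this
  have hc1 : q + r ≤ 4 * (I1.card : ℤ) := by
    have := card_le_image F1 E1 hE1rel
    rw [← c1]
    exact_mod_cast this
  have hc2 : q - r ≤ 4 * (I2.card : ℤ) := by
    have := card_le_image F2 E2 hE2rel
    rw [← c2]
    exact_mod_cast this
  have hd1 : Disjoint Sp I0 := by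
    rw [disjoint_right]
    intro χ hχ
    obtain ⟨l, -, rfl⟩ := mem_image.mp hχ
    exact hE0Sp l
  have hd2 : Disjoint (Sp ∪ I0) I1 := by
    rw [disjoint_right]
    intro χ hχ hmem
    obtain ⟨l, -, rfl⟩ := mem_image.mp hχ
    rcases mem_union.mp hmem with h | h
    · exact hE1 l h
    · obtain ⟨k, -, hk⟩ := mem_image.mp h
      exact hne01 k l hk
  have hd3 : Disjoint (Sp ∪ I0 ∪ I1) I2 := by
    rw [disjoint_right]
    intro χ hχ hmem
    obtain ⟨l, -, rfl⟩ := mem_image.mp hχ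
    rcases mem_union.mp hmem with h | h
    · rcases mem_union.mp h with h | h
      · exact hE2 l h
      · obtain ⟨k, -, hk⟩ := mem_image.mp h
        exact hne02 k l hk
    · obtain ⟨k, -, hk⟩ := mem_image.mp h
      exact hne12 k l hk
  set W := Sp ∪ I0 ∪ I1 ∪ I2 with hW
  set Rm := ∑ χ ∈ Wᶜ, d χ ^ 2 with hRm
  have hRm0 : 0 ≤ Rm := sum_nonneg (fun _ _ => sq_nonneg _)
  set n0 : ℤ := (I0.card : ℤ) with hn0
  set n1 : ℤ := (I1.card : ℤ) with hn1'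
  set n2 : ℤ := (I2.card : ℤ) with hn2'
  have hS0 : ∑ χ ∈ I0, d χ ^ 2 = n0 * (q ^ 2 + 1) ^ 2 := by
    have : ∀ χ ∈ I0, d χ ^ 2 = (q ^ 2 + 1) ^ 2 := by
      intro χ hχ
      obtain ⟨l, -, rfl⟩ := mem_image.mp hχ
      rw [hdE0]
    rw [sum_congr rfl this, sum_const, nsmul_eq_mul]
  have hS1 : ∑ χ ∈ I1, d χ ^ 2 = n1 * (1 - q ^ 2 - 2 * b1 * t) ^ 2 := by
    have : ∀ χ ∈ I1, d χ ^ 2 = (1 - q ^ 2 - 2 * b1 * t) ^ 2 := by
      intro χ hχ
      obtain ⟨l, -, rfl⟩ := mem_image.mp hχ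
      rw [hdE1]
    rw [sum_congr rfl this, sum_const, nsmul_eq_mul]
  have hS2 : ∑ χ ∈ I2, d χ ^ 2 = n2 * (1 - q ^ 2 - 2 * b2 * t) ^ 2 := by
    have : ∀ χ ∈ I2, d χ ^ 2 = (1 - q ^ 2 - 2 * b2 * t) ^ 2 := by
      intro χ hχ
      obtain ⟨l, -, rfl⟩ := mem_image.mp hχ
      rw [hdE2]
    rw [sum_congr rfl this, sum_const, nsmul_eq_mul]
  have hmain : q ^ 2 * (q ^ 2 + 1) * (q - 1) =
      1 + (q ^ 2) ^ 2 + t ^ 2 + t ^ 2 + n0 * (q ^ 2 + 1) ^ 2 +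
        n1 * (1 - q ^ 2 - 2 * b1 * t) ^ 2 + n2 * (1 - q ^ 2 - 2 * b2 * t) ^ 2 + Rm := by
    rw [← hsum, ← sum_add_sum_compl W (fun χ => d χ ^ 2), hW, sum_union hd3, sum_union hd2,
      sum_union hd1, hSpsum, d1, dst, dth, dthb, hS0, hS1, hS2]
    ring
  -- the key inequality
  have hbsq : b1 ^ 2 = 1 := hb1sq
  rw [hb2eq] at hmain
  set Δ := 2 * t + b1 * r * (q - 1) with hΔ
  set D1 := (1 - q ^ 2 - 2 * b1 * t) ^ 2 with hD1
  set D2 := (1 - q ^ 2 - 2 * -b1 * t) ^ 2 with hD2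
  have hD10 : 0 ≤ D1 := sq_nonneg _
  have hD20 : 0 ≤ D2 := sq_nonneg _
  have hid : 4 * (q ^ 2 * (q ^ 2 + 1) * (q - 1)) -
      (4 * (1 + (q ^ 2) ^ 2 + t ^ 2 + t ^ 2) + 2 * (q - 2) * (q ^ 2 + 1) ^ 2 + (q + r) * D1 +
        (q - r) * D2) = -2 * (q + 1) * Δ ^ 2 := by
    simp only [hD1, hD2, hΔ]
    linear_combination (-8 * q * t ^ 2 + 4 * q * (q + 1) * (q - 1) ^ 2) * hbsq +
      2 * (q + 1) * (q - 1) ^ 2 * b1 ^ 2 * hr
  have hi0 : 2 * (q - 2) * (q ^ 2 + 1) ^ 2 ≤ 4 * n0 * (q ^ 2 + 1) ^ 2 :=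
    mul_le_mul_of_nonneg_right (by linarith) (sq_nonneg _)
  have hi1 : (q + r) * D1 ≤ 4 * n1 * D1 := mul_le_mul_of_nonneg_right hc1 hD10
  have hi2 : (q - r) * D2 ≤ 4 * n2 * D2 := mul_le_mul_of_nonneg_right hc2 hD20
  have hkey : 2 * (q + 1) * Δ ^ 2 + 4 * Rm ≤ 0 := by
    linarith
  have hΔ0 : Δ = 0 := by
    by_contra hne
    have h1 : 1 ≤ Δ ^ 2 := by
      have : 0 < Δ ^ 2 := by positivity
      omega
    have h2 : (q + 1) * 1 ≤ (q + 1) * Δ ^ 2 := mul_le_mul_of_nonneg_left h1 (by linarith)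
    linarith
  have hRmz : Rm = 0 := by
    have h1 : 0 ≤ 2 * (q + 1) * Δ ^ 2 := mul_nonneg (by linarith) (sq_nonneg _)
    linarith
  have hb_neg : b1 = -1 := by
    rcases hb1r with h | h | h
    · exact h
    · rw [h] at hbsq
      norm_num at hbsq
    · exfalso
      have h3 : Δ = 2 * t + 1 * r * (q - 1) := by rw [hΔ, h]
      have h4 : 0 < r * (q - 1) := mul_pos hr0 (by linarith)
      rw [hΔ0] at h3
      linarith
  have h2t : 2 * t = r * (q - 1) := by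
    have h3 : Δ = 2 * t + -1 * r * (q - 1) := by rw [hΔ, hb_neg]
    rw [hΔ0] at h3
    linarith
  have hq1r : 0 < (q - 1) * (q + 1 - r) := by
    apply mul_pos <;> linarith
  have hq1r' : 0 < (q - 1) * (q + 1 + r) := by
    apply mul_pos <;> linarith
  have hE1d : ∀ l, d (E1 l) = (q - 1) * (q + 1 - r) := by
    intro l
    apply int_sq_eq_of_sq (by linarith [hd (E1 l)]) hq1r
    rw [hdE1, hD1, hb_neg]
    have : 1 - q ^ 2 - 2 * -1 * t = 1 - q ^ 2 + r * (q - 1) := by linarith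
    rw [this]
    ring
  have hE2d : ∀ l, d (E2 l) = (q - 1) * (q + 1 + r) := by
    intro l
    apply int_sq_eq_of_sq (by linarith [hd (E2 l)]) hq1r'
    rw [hdE2, hb2eq, hb_neg]
    have : 1 - q ^ 2 - 2 * - -1 * t = 1 - q ^ 2 - r * (q - 1) := by linarith
    rw [this]
    ring
  -- the signs
  have hE0s : ∀ l, g0 l (E0 l) = 1 := by
    intro l
    have h1 := sum_of_support Sp0 (E0 l) (hE0 l) (g0 l) (hE0z l) d
    rw [F0.deg l, hSp0, sum_pair h12, g0one, g0st, d1, dst, hdE0] at h1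
    have h2 : 0 < q ^ 2 + 1 := by positivity
    have h3 : (g0 l (E0 l) - 1) * (q ^ 2 + 1) = 0 := by linarith
    have h4 := (mul_eq_zero.mp h3).resolve_right h2.ne'
    linarith
  have hE1s : ∀ l, g1 l (E1 l) = -1 := by
    intro l
    have h1 := sum_of_support Sp (E1 l) (hE1 l) (g1 l) (hE1z l) d
    rw [F1.deg l, hSpsum, g1one, g1st, g1b, hg1th, d1, dst, dth, dthb, hE1d, hb_neg] at h1
    have h3 : (g1 l (E1 l) + 1) * ((q - 1) * (q + 1 - r)) = 0 := by linear_combination -h1 + h2t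
    have h4 := (mul_eq_zero.mp h3).resolve_right hq1r.ne'
    linarith
  have hb2one : b2 = 1 := by rw [hb2eq, hb_neg]; norm_num
  have hE2s : ∀ l, g2 l (E2 l) = -1 := by
    intro l
    have h1 := sum_of_support Sp (E2 l) (hE2 l) (g2 l) (hE2z l) d
    rw [F2.deg l, hSpsum, g2one, g2st, g2b, hg2th, d1, dst, dth, dthb, hE2d, hb2one] at h1
    have h3 : (g2 l (E2 l) + 1) * ((q - 1) * (q + 1 + r)) = 0 := by linear_combination -h1 - h2t
    have h4 := (mul_eq_zero.mp h3).resolve_right hq1r'.ne'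
    linarith
  -- the exact cardinalities
  have hX0 : 0 < (q ^ 2 + 1) ^ 2 := by positivity
  have hD1pos : 0 < D1 := by
    rw [← hdE1 l1]
    have := hd (E1 l1)
    positivity
  have hD2pos : 0 < D2 := by
    have h1 := hdE2 l2
    rw [hb2eq] at h1
    rw [hD2, ← h1]
    have := hd (E2 l2)
    positivity
  have hzero : (2 * n0 - (q - 2)) * (2 * (q ^ 2 + 1) ^ 2) + (4 * n1 - (q + r)) * D1 +
      (4 * n2 - (q - r)) * D2 + 2 * (q + 1) * Δ ^ 2 + 4 * Rm = 0 := by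
    linarith
  have ht1' : 0 ≤ (2 * n0 - (q - 2)) * (2 * (q ^ 2 + 1) ^ 2) :=
    mul_nonneg (by linarith) (by positivity)
  have ht2' : 0 ≤ (4 * n1 - (q + r)) * D1 := mul_nonneg (by linarith) hD10
  have ht3' : 0 ≤ (4 * n2 - (q - r)) * D2 := mul_nonneg (by linarith) hD20
  have ht4' : 0 ≤ 2 * (q + 1) * Δ ^ 2 := mul_nonneg (by linarith) (sq_nonneg _)
  have hn0e : 2 * n0 = q - 2 := by
    have h1 : (2 * n0 - (q - 2)) * (2 * (q ^ 2 + 1) ^ 2) = 0 := by linarith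
    have h2 := (mul_eq_zero.mp h1).resolve_right (by positivity)
    linarith
  have hn1e : 4 * n1 = q + r := by
    have h1 : (4 * n1 - (q + r)) * D1 = 0 := by linarith
    have h2 := (mul_eq_zero.mp h1).resolve_right hD1pos.ne'
    linarith
  have hn2e : 4 * n2 = q - r := by
    have h1 : (4 * n2 - (q - r)) * D2 = 0 := by linarith
    have h2 := (mul_eq_zero.mp h1).resolve_right hD2pos.ne'
    linarith
  have hSpn : ∀ χ, χ ∉ Sp ↔ χ ≠ one ∧ χ ≠ st ∧ χ ≠ th ∧ χ ≠ thb := by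
    intro χ
    rw [hSp]
    simp only [mem_insert, mem_singleton, not_or]
  have hall : ∀ χ, χ = one ∨ χ = st ∨ χ = th ∨ χ = thb ∨ (∃ l, χ = E0 l) ∨ (∃ l, χ = E1 l) ∨
      (∃ l, χ = E2 l) := by
    intro χ
    have hχW : χ ∈ W := by
      by_contra hn
      have h1 : d χ ^ 2 ≤ Rm := single_le_sum (f := fun χ => d χ ^ 2) (fun _ _ => sq_nonneg _)
        (by simpa using hn)
      have h2 := hd χ
      have h3 : 1 ≤ d χ ^ 2 := one_le_pow₀ h2
      linarith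
    rw [hW] at hχW
    simp only [mem_union] at hχW
    rcases hχW with ((h | h) | h) | h
    · rw [hSp] at h
      simp only [mem_insert, mem_singleton] at h
      rcases h with h | h | h | h
      · exact Or.inl h
      · exact Or.inr (Or.inl h)
      · exact Or.inr (Or.inr (Or.inl h))
      · exact Or.inr (Or.inr (Or.inr (Or.inl h)))
    · obtain ⟨l, -, rfl⟩ := mem_image.mp h
      exact Or.inr (Or.inr (Or.inr (Or.inr (Or.inl ⟨l, rfl⟩))))
    · obtain ⟨l, -, rfl⟩ := mem_image.mp h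
      exact Or.inr (Or.inr (Or.inr (Or.inr (Or.inr (Or.inl ⟨l, rfl⟩)))))
    · obtain ⟨l, -, rfl⟩ := mem_image.mp h
      exact Or.inr (Or.inr (Or.inr (Or.inr (Or.inr (Or.inr ⟨l, rfl⟩)))))
  refine ⟨E0, E1, E2, hE0s, hE1s, hE2s, ?_, ?_, ?_, hE0rel, hE1rel, hE2rel, hne01, hne02, hne12,
    fun l => (hSpn _).mp (hE0Sp l), fun l => (hSpn _).mp (hE1 l), fun l => (hSpn _).mp (hE2 l),
    hall, hdE0, hE1d, hE2d, h2t, hg0th, ?_, ?_, hn0e, hn1e, hn2e⟩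
  · intro l χ h1 h2 h3
    apply hE0z l χ _ h3
    rw [hSp0]
    simp only [mem_insert, mem_singleton, not_or]
    exact ⟨h1, h2⟩
  · intro l χ h1 h2 h3 h4 h5
    exact hE1z l χ ((hSpn χ).mpr ⟨h1, h2, h3, h4⟩) h5
  · intro l χ h1 h2 h3 h4 h5
    exact hE2z l χ ((hSpn χ).mpr ⟨h1, h2, h3, h4⟩) h5
  · intro l
    rw [hg1th, hb_neg]
  · intro l
    rw [hg2th, hb2one]

end Main

end Cfsg.Agent.Lib.SzChar.Num2
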