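import Mathlib
import Cfsg.Agent.Lib.SzChar.Torus

/-!
# Values of characters on a torus, from the columns
-/

set_option autoImplicit false
set_option linter.unusedSectionVars false
set_option linter.style.haveILetI false

namespace Cfsg.Agent.Lib.SzChar.Vals

open Cfsg Cfsg.Agent.Lib.Char.CompleteCor Cfsg.Agent.Lib.SzChar.Torus
open scoped ComplexConjugate
open Finset

universe u

variable {G : Type u} [Group G] [Fintype G] [Fintype (IrrCharacter G)]
variable {A : Subgroup G} [Fintype A]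

theorem sum_dual_ne [Fintype (A →* ℂˣ)] (hA : ∀ a b : A, a * b = b * a) {a : A} (ha : a ≠ 1) :
    ∑ φ : A →* ℂˣ, ((φ a : ℂˣ) : ℂ) = 0 := by
  obtain ⟨φ₀, h0⟩ := exists_dual_ne' hA ha
  have hmul : ((φ₀ a : ℂˣ) : ℂ) * ∑ φ : A →* ℂˣ, ((φ a : ℂˣ) : ℂ) =
      ∑ φ : A →* ℂˣ, ((φ a : ℂˣ) : ℂ) := by
    rw [Finset.mul_sum]
    refine Eq.trans ?_ (Equiv.sum_comp (Equiv.mulLeft φ₀) (fun φ : A →* ℂˣ => ((φ a : ℂˣ) : ℂ)))
    refine Finset.sum_congr rfl fun φ _ => ?_
    simp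
  have hne : ((φ₀ a : ℂˣ) : ℂ) ≠ 1 := fun h => h0 (Units.ext h)
  have : (((φ₀ a : ℂˣ) : ℂ) - 1) * ∑ φ : A →* ℂˣ, ((φ a : ℂˣ) : ℂ) = 0 := by
    rw [sub_mul, hmul, one_mul, sub_self]
  exact (mul_eq_zero.1 this).resolve_left (sub_ne_zero.2 hne)

/-- Fourier inversion at a point. -/
theorem inversion' [Fintype (A →* ℂˣ)] (hA : ∀ a b : A, a * b = b * a) (w : A → ℂ) (x : A) :
    ∑ φ : A →* ℂˣ, classInner w (fun b => ((φ b : ℂˣ) : ℂ)) * ((φ x : ℂˣ) : ℂ) = w x := by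
  classical
  have h1 := sum_dual_inner hA (fun y : A => w (x * y))
  rw [mul_one] at h1
  rw [← h1]
  refine Finset.sum_congr rfl fun φ _ => ?_
  simp only [classInner]
  rw [mul_assoc]
  congr 1
  rw [Finset.sum_mul]
  refine Eq.trans ?_ (Equiv.sum_comp (Equiv.mulLeft x⁻¹) _)
  refine Finset.sum_congr rfl fun y _ => ?_
  simp only [Equiv.coe_mulLeft]
  rw [mul_inv_cancel_left]
  have h2 : conj ((φ (x⁻¹ * y) : ℂˣ) : ℂ) = ((φ x : ℂˣ) : ℂ) * conj ((φ y : ℂˣ) : ℂ) := by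
    rw [conj_hom, conj_hom, MonoidHom.inv_apply, MonoidHom.inv_apply, map_mul, map_inv, mul_inv,
      inv_inv, Units.val_mul]
  rw [h2]
  ring

omit [Fintype G] [Fintype (IrrCharacter G)] [Fintype A] in
theorem sum_split [Fintype (A →* ℂˣ)] [Fintype (Lm A)] (f : (A →* ℂˣ) → ℂ) :
    ∑ φ, f φ = f 1 + ∑ l : Lm A, f l.1 := by
  classical
  rw [← Finset.add_sum_erase Finset.univ f (Finset.mem_univ 1)]
  congr 1
  exact Finset.sum_subtype _ (by simp) f

/-- The expansion of a character on a torus. -/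
theorem val_eq_sum (hT : TorusHyp A) [Fintype (Lm A)] (χ : IrrCharacter G) {x : A} (hx : x ≠ 1) :
    χ.1 x = ∑ l : Lm A, ((gzL A l χ : ℤ) : ℂ) * ((l.1 x : ℂˣ) : ℂ) := by
  classical
  have hA := comm' hT
  haveI := finite_dual' hA
  letI : Fintype (A →* ℂˣ) := Fintype.ofFinite _
  have h1 := inversion' hA (fun y : A => χ.1 y) x
  have h2 : ∀ φ : A →* ℂˣ, classInner (fun y : A => χ.1 y) (fun b => ((φ b : ℂˣ) : ℂ)) =
      gc A φ χ.1 + classInner (fun y : A => χ.1 y) (fun _ => (1 : ℂ)) := by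
    intro φ
    rw [gc_eq_inner]
    ring
  simp only [h2, add_mul] at h1
  rw [Finset.sum_add_distrib, ← Finset.mul_sum, sum_dual_ne hA hx, mul_zero, add_zero] at h1
  rw [← h1]
  have h3 : gc A (1 : A →* ℂˣ) χ.1 = 0 := by
    unfold gc
    simp
  rw [sum_split, h3, zero_mul, zero_add]
  refine Finset.sum_congr rfl fun l _ => ?_
  congr 1
  unfold gzL
  rw [gz_spec]

/-- Value of a character vanishing on all columns. -/
theorem val_zero (hT : TorusHyp A) [Fintype (Lm A)] (χ : IrrCharacter G) {x : A} (hx : x ≠ 1)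
    (h : ∀ l : Lm A, gzL A l χ = 0) : χ.1 x = 0 := by
  rw [val_eq_sum hT χ hx]
  simp [h]

/-- The sum of the nontrivial linear characters at `x ≠ 1`. -/
theorem sum_Lm (hT : TorusHyp A) [Fintype (Lm A)] {x : A} (hx : x ≠ 1) :
    ∑ l : Lm A, ((l.1 x : ℂˣ) : ℂ) = -1 := by
  classical
  have hA := comm' hT
  haveI := finite_dual' hA
  letI : Fintype (A →* ℂˣ) := Fintype.ofFinite _
  have h1 := sum_dual_ne hA hx
  rw [sum_split] at h1
  simp only [MonoidHom.one_apply, Units.val_one] at h1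
  linear_combination h1

/-- Value of a character with all columns constant. -/
theorem val_const (hT : TorusHyp A) [Fintype (Lm A)] (χ : IrrCharacter G) {x : A} (hx : x ≠ 1)
    {b : ℤ} (h : ∀ l : Lm A, gzL A l χ = b) : χ.1 x = -(b : ℂ) := by
  rw [val_eq_sum hT χ hx]
  simp only [h]
  rw [← Finset.mul_sum, sum_Lm hT hx]
  ring

/-- The column of an element not conjugate into the torus. -/
theorem sum_gz_col (l : A →* ℂˣ) {w : G} (hw : ∀ x : A, x ≠ 1 → ¬ IsConj w (x : G)) :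
    ∑ χ : IrrCharacter G, ((gz A l χ : ℤ) : ℂ) * conj (χ.1 w) = 0 := by
  classical
  have h1 : ∀ χ : IrrCharacter G, ((gz A l χ : ℤ) : ℂ) * conj (χ.1 w) =
      (Nat.card A : ℂ)⁻¹ * ∑ x : A, (conj ((l x : ℂˣ) : ℂ) - 1) * (χ.1 x * conj (χ.1 w)) := by
    intro χ
    rw [gz_spec]
    unfold gc
    rw [mul_assoc, Finset.sum_mul]
    congr 1
    refine Finset.sum_congr rfl fun x _ => by ring
  simp only [h1]
  rw [← Finset.mul_sum, Finset.sum_comm]
  have h2 : ∀ x : A, ∑ χ : IrrCharacter G, (conj ((l x : ℂˣ) : ℂ) - 1) * (χ.1 x * conj (χ.1 w)) = 0 := by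
    intro x
    rw [← Finset.mul_sum, ← conjCount_eq_sum]
    by_cases hx : x = 1
    · subst hx
      simp
    · rw [conjCount_of_not_isConj, mul_zero]
      exact fun hc => hw x hx hc.symm
  simp only [h2, Finset.sum_const_zero, mul_zero]

end Cfsg.Agent.Lib.SzChar.Vals
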