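import Mathlib
import Cfsg.Agent.Lib.SzChar.Main
import Cfsg.Agent.Lib.SzChar.Num2
import Cfsg.Agent.Lib.SzChar.Vals
import Cfsg.Agent.Lib.SzChar.Class

/-!
# The table of the Suzuki groups: columns of the tori
-/

set_option autoImplicit false
set_option linter.unusedSectionVars false
set_option linter.style.haveILetI false
set_option linter.unusedSimpArgs false
set_option linter.deprecated false
set_option linter.unusedVariables false

namespace Cfsg.Agent.Lib.SzChar.Table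

open Cfsg Cfsg.Agent.Lib.SzChar.Num Cfsg.Agent.Lib.SzChar.Torus Cfsg.Agent.Lib.SzChar.Main
  Cfsg.Agent.Lib.SzChar.Vals Cfsg.Agent.Lib.SzChar.Class
  Cfsg.Agent.Lib.Suzuki.Basic Cfsg.Agent.Lib.Suzuki.Group Cfsg.Agent.Lib.Suzuki.Struct
  Cfsg.Agent.Lib.Suzuki.Order Cfsg.Agent.Lib.Suzuki.Zass Cfsg.Agent.Lib.Suzuki.Sub
  Cfsg.Agent.Lib.Suzuki.Syl Cfsg.Agent.Lib.Suzuki.Gen Cfsg.Agent.Lib.Suzuki.Fix
  Cfsg.Agent.Lib.Suzuki.Cent Cfsg.Agent.Lib.Suzuki.Types Cfsg.Agent.Lib.Suzuki.Tori1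
  Cfsg.Agent.Lib.Suzuki.Tori2 Cfsg.Agent.Lib.Suzuki.Tori3
open scoped ComplexConjugate
open Finset

section Gen

variable {X : Type*} [Fintype X] [DecidableEq X]

theorem sum_part (a b c d : X) (I0 I1 I2 : Finset X) (hab : a ≠ b) (hac : a ≠ c) (had : a ≠ d)
    (hbc : b ≠ c) (hbd : b ≠ d) (hcd : c ≠ d)
    (h0 : ∀ χ ∈ I0, χ ≠ a ∧ χ ≠ b ∧ χ ≠ c ∧ χ ≠ d)
    (h1 : ∀ χ ∈ I1, χ ≠ a ∧ χ ≠ b ∧ χ ≠ c ∧ χ ≠ d)
    (h2 : ∀ χ ∈ I2, χ ≠ a ∧ χ ≠ b ∧ χ ≠ c ∧ χ ≠ d)
    (d01 : Disjoint I0 I1) (d02 : Disjoint I0 I2) (d12 : Disjoint I1 I2)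
    (cov : ∀ χ, χ = a ∨ χ = b ∨ χ = c ∨ χ = d ∨ χ ∈ I0 ∨ χ ∈ I1 ∨ χ ∈ I2) (f : X → ℂ) :
    ∑ χ, f χ = f a + f b + f c + f d + ∑ χ ∈ I0, f χ + ∑ χ ∈ I1, f χ + ∑ χ ∈ I2, f χ := by
  have hU : (Finset.univ : Finset X) = insert a (insert b (insert c (insert d (I0 ∪ (I1 ∪ I2))))) := by
    ext χ
    simp only [Finset.mem_univ, Finset.mem_insert, Finset.mem_union, true_iff]
    rcases cov χ with h | h | h | h | h | h | h
    · exact Or.inl h
    · exact Or.inr (Or.inl h)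
    · exact Or.inr (Or.inr (Or.inl h))
    · exact Or.inr (Or.inr (Or.inr (Or.inl h)))
    · exact Or.inr (Or.inr (Or.inr (Or.inr (Or.inl h))))
    · exact Or.inr (Or.inr (Or.inr (Or.inr (Or.inr (Or.inl h)))))
    · exact Or.inr (Or.inr (Or.inr (Or.inr (Or.inr (Or.inr h)))))
  have nd : d ∉ I0 ∪ (I1 ∪ I2) := by
    simp only [Finset.mem_union, not_or]
    exact ⟨fun h => (h0 d h).2.2.2 rfl, fun h => (h1 d h).2.2.2 rfl, fun h => (h2 d h).2.2.2 rfl⟩
  have nc : c ∉ insert d (I0 ∪ (I1 ∪ I2)) := by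
    simp only [Finset.mem_insert, Finset.mem_union, not_or]
    exact ⟨hcd, fun h => (h0 c h).2.2.1 rfl, fun h => (h1 c h).2.2.1 rfl, fun h => (h2 c h).2.2.1 rfl⟩
  have nb : b ∉ insert c (insert d (I0 ∪ (I1 ∪ I2))) := by
    simp only [Finset.mem_insert, Finset.mem_union, not_or]
    exact ⟨hbc, hbd, fun h => (h0 b h).2.1 rfl, fun h => (h1 b h).2.1 rfl, fun h => (h2 b h).2.1 rfl⟩
  have na : a ∉ insert b (insert c (insert d (I0 ∪ (I1 ∪ I2)))) := by
    simp only [Finset.mem_insert, Finset.mem_union, not_or]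
    exact ⟨hab, hac, had, fun h => (h0 a h).1 rfl, fun h => (h1 a h).1 rfl, fun h => (h2 a h).1 rfl⟩
  rw [hU, Finset.sum_insert na, Finset.sum_insert nb, Finset.sum_insert nc, Finset.sum_insert nd,
    Finset.sum_union (Finset.disjoint_union_right.mpr ⟨d01, d02⟩), Finset.sum_union d12]
  ring

theorem sum_of_support' (Sp : Finset X) (E₀ : X) (h0 : E₀ ∉ Sp) (g : X → ℂ)
    (hz : ∀ χ, χ ∉ Sp → χ ≠ E₀ → g χ = 0) :
    ∑ χ, g χ = ∑ χ ∈ Sp, g χ + g E₀ := by
  rw [← Finset.sum_add_sum_compl Sp]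
  congr 1
  refine Finset.sum_eq_single_of_mem E₀ (by simpa using h0) ?_
  intro χ hχ hne
  exact hz χ (by simpa using hχ) hne

end Gen

section Conj

variable {G : Type*} [Group G] [Fintype G]

theorem conj_val (χ : IrrCharacter G) {a b : G} (hc : IsConj a b) : χ.1 a = χ.1 b := by
  obtain ⟨c, hc⟩ := isConj_iff.mp hc
  rw [← hc]
  exact (Cfsg.Agent.Lib.Char.CompleteCor.isIrr_classFunction χ.2 _ _).symm

end Conj

variable {F : Type*} [Field F] [Fintype F] {m : ℕ}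

/-- The facts about the table. -/
structure TT (h : Hyp F m) [Fintype (G F m)] [Fintype (IrrCharacter (G F m))]
    (t : Tb (G F m)) (A1 A2 : Tor F m) : Prop where
  one_val : ∀ g, t.one.1 g = 1
  thb_val : ∀ g, t.thb.1 g = conj (t.th.1 g)
  st_val : ∀ g, t.st.1 g = ((Nat.card (MulAction.fixedBy (Om F m) g) : ℕ) : ℂ) - 1
  hq : t.q = ((2 ^ (2 * m + 1) : ℤ) : ℝ)
  hr : t.r = ((2 ^ (m + 1) : ℤ) : ℝ)
  c1 : (Nat.card A1.1 : ℤ) = 2 ^ (2 * m + 1) + 2 ^ (m + 1) + 1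
  c2 : (Nat.card A2.1 : ℤ) = 2 ^ (2 * m + 1) - 2 ^ (m + 1) + 1
  real1 : ∀ x ∈ A1.1, ∃ g : G F m, g * x * g⁻¹ = x⁻¹
  real2 : ∀ x ∈ A2.1, ∃ g : G F m, g * x * g⁻¹ = x⁻¹
  cover : ∀ A : Tor F m, (∃ x : G F m, A = x • A1) ∨ (∃ x : G F m, A = x • A2)
  D_th : ∀ k : Fˣ, k ≠ 1 → t.th.1 (Dg h k) = 0
  D_i1 : ∀ k : Fˣ, k ≠ 1 → ∀ χ ∈ t.I1, χ.1 (Dg h k) = 0
  D_i2 : ∀ k : Fˣ, k ≠ 1 → ∀ χ ∈ t.I2, χ.1 (Dg h k) = 0
  A_th : ∀ x ∈ A1.1, x ≠ 1 → t.th.1 x = 1
  A_i0 : ∀ x ∈ A1.1, x ≠ 1 → ∀ χ ∈ t.I0, χ.1 x = 0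
  A_i2 : ∀ x ∈ A1.1, x ≠ 1 → ∀ χ ∈ t.I2, χ.1 x = 0
  B_th : ∀ x ∈ A2.1, x ≠ 1 → t.th.1 x = -1
  B_i0 : ∀ x ∈ A2.1, x ≠ 1 → ∀ χ ∈ t.I0, χ.1 x = 0
  B_i1 : ∀ x ∈ A2.1, x ≠ 1 → ∀ χ ∈ t.I1, χ.1 x = 0
  two_i0 : ∀ w, t.st.1 w = 0 → ∀ χ ∈ t.I0, χ.1 w = 1
  two_i1 : ∀ w, t.st.1 w = 0 → ∀ χ ∈ t.I1, χ.1 w = -1 - (t.th.1 w + t.thb.1 w)
  two_i2 : ∀ w, t.st.1 w = 0 → ∀ χ ∈ t.I2, χ.1 w = -1 + (t.th.1 w + t.thb.1 w)

section
variable (h : Hyp F m)
include h

set_option maxHeartbeats 4000000 in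
/-- Existence of the table. -/
theorem exists_TT [Fintype (G F m)] [Fintype (IrrCharacter (G F m))] :
    ∃ (t : Tb (G F m)) (A1 A2 : Tor F m), TT h t A1 A2 := by
  classical
  obtain ⟨A1, A2, hcover, hN1, hN2, hc1, hc2⟩ := tori_main h
  obtain ⟨q, hq⟩ : ∃ q : ℤ, q = 2 ^ (2 * m + 1) := ⟨_, rfl⟩
  obtain ⟨r, hr⟩ : ∃ r : ℤ, r = 2 ^ (m + 1) := ⟨_, rfl⟩
  have hm := h.hm
  -- arithmetic of `q`, `r`
  have hq8 : 8 ≤ q := by
    rw [hq]
    calc (8 : ℤ) = 2 ^ 3 := by norm_num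
      _ ≤ 2 ^ (2 * m + 1) := pow_le_pow_right₀ (by norm_num) (by omega)
  have hr2 : r ^ 2 = 2 * q := by
    rw [hq, hr, ← pow_mul, ← pow_succ']
    congr 1
    ring
  have hr0 : 0 < r := by
    rw [hr]
    positivity
  have hF : (Fintype.card F : ℤ) = q := by
    rw [h.hF, hq]
    push_cast
    rfl
  have hFpos : 1 ≤ Fintype.card F := Fintype.card_pos
  have hcD : (Nat.card (Dsub h) : ℤ) = q - 1 := by
    rw [card_Dsub h, Nat.cast_sub hFpos, hF]
    rfl
  have hca1 : (Nat.card A1.1 : ℤ) = q + r + 1 := by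
    rw [hc1, hq, hr]
    push_cast
    rfl
  have hca2 : (Nat.card A2.1 : ℤ) = q - r + 1 := by
    rw [hc2, hq, hr]
    have hle : 2 ^ (m + 1) ≤ 2 ^ (2 * m + 1) := Nat.pow_le_pow_right (by norm_num) (by omega)
    push_cast [Nat.cast_sub hle]
    rfl
  have hcop12 : Nat.Coprime (Nat.card A1.1) (Nat.card A2.1) := by
    rw [← Nat.isCoprime_iff_coprime, hca1, hca2, hq, hr]
    exact cop2 m
  have hcop1 : IsCoprime (q - 1) (q ^ 2 + 1) := by
    rw [hq]
    exact cop1 m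
  have hcop2 : IsCoprime (q + r + 1) (q - r + 1) := by
    rw [hq, hr]
    exact cop2 m
  -- the tori
  have hTD := Dtorus h
  have hT1 := torus_of_tor h A1
  have hT2 := torus_of_tor h A2
  letI : Fintype (Dsub h) := Fintype.ofFinite _
  letI : Fintype A1.1 := Fintype.ofFinite _
  letI : Fintype A2.1 := Fintype.ofFinite _
  have hAD := comm' hTD
  have hA1 := comm' hT1
  have hA2 := comm' hT2
  haveI := finite_dual' hAD
  haveI := finite_dual' hA1
  haveI := finite_dual' hA2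
  letI : Fintype (Lm (Dsub h)) := Fintype.ofFinite _
  letI : Fintype (Lm A1.1) := Fintype.ofFinite _
  letI : Fintype (Lm A2.1) := Fintype.ofFinite _
  have cD : (Fintype.card (Lm (Dsub h)) : ℤ) = q - 2 := by
    have := card_Lm hAD
    rw [Nat.card_eq_fintype_card (α := Lm (Dsub h))] at this
    have h2 : (Fintype.card (Lm (Dsub h)) : ℤ) + 1 = (Nat.card (Dsub h) : ℤ) := by exact_mod_cast this
    rw [hcD] at h2
    linarith
  have c1 : (Fintype.card (Lm A1.1) : ℤ) = q + r := by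
    have := card_Lm hA1
    rw [Nat.card_eq_fintype_card (α := Lm A1.1)] at this
    have h2 : (Fintype.card (Lm A1.1) : ℤ) + 1 = (Nat.card A1.1 : ℤ) := by exact_mod_cast this
    rw [hca1] at h2
    linarith
  have c2 : (Fintype.card (Lm A2.1) : ℤ) = q - r := by
    have := card_Lm hA2
    rw [Nat.card_eq_fintype_card (α := Lm A2.1)] at this
    have h2 : (Fintype.card (Lm A2.1) : ℤ) + 1 = (Nat.card A2.1 : ℤ) := by exact_mod_cast this
    rw [hca2] at h2
    linarith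
  -- the characters
  obtain ⟨st, hst⟩ := exists_St h
  obtain ⟨θ, hθ⟩ := exists_nonreal (G := G F m) (u := Lg h 1 0) (not_conj h)
  let thb : IrrCharacter (G F m) :=
    ⟨fun g => conj (θ.1 g), Cfsg.Agent.Lib.Char.RealOver.isIrr_conj θ.2⟩
  let one : IrrCharacter (G F m) := ⟨fun _ => 1, Cfsg.Agent.Lib.Char.IndNormal.isIrrCharacter_principal⟩
  set u := Lg h 1 0 with hu
  have hstv : ∀ g, st.1 g = ((Nat.card (MulAction.fixedBy (Om F m) g) : ℕ) : ℂ) - 1 := by
    intro g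
    rw [hst g]
    ring
  have hrealst : conj (st.1 u) = st.1 u := by
    rw [hstv]
    simp
  have hrealone : conj (one.1 u) = one.1 u := by
    simp [one]
  have hnth : ¬ (conj (θ.1 u) = θ.1 u) := hθ
  have hnthb : ¬ (conj (thb.1 u) = thb.1 u) := by
    intro hc
    apply hθ
    simp only [thb, Complex.conj_conj] at hc
    exact hc.symm
  have hstone : st.1 1 = ((q ^ 2 : ℤ) : ℂ) := by
    rw [hstv, fix_one, ← hF]
    push_cast
    ring
  have hdone : charDegree one.1 = 1 := by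
    unfold charDegree
    simp [one]
  have hdst : ((charDegree st.1 : ℕ) : ℤ) = q ^ 2 := by
    have h1 := Cfsg.Agent.Lib.Char.Values.IsCharacter.charDegree_cast
      (Cfsg.Agent.Lib.Char.Basic.isCharacter_of_isIrrCharacter st.2)
    rw [hstone] at h1
    exact_mod_cast h1
  have hdthb : ((charDegree thb.1 : ℕ) : ℤ) = ((charDegree θ.1 : ℕ) : ℤ) := by
    have h1 : charDegree thb.1 = charDegree θ.1 := by
      have h2 := Cfsg.Agent.Lib.Char.Values.IsCharacter.charDegree_cast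
        (Cfsg.Agent.Lib.Char.Basic.isCharacter_of_isIrrCharacter θ.2)
      have h3 := Cfsg.Agent.Lib.Char.Values.IsCharacter.charDegree_cast
        (Cfsg.Agent.Lib.Char.Basic.isCharacter_of_isIrrCharacter thb.2)
      have h4 : thb.1 1 = conj (θ.1 1) := rfl
      rw [h4, ← h2, Complex.conj_natCast] at h3
      exact_mod_cast h3
    rw [h1]
  have hdpos : ∀ χ : IrrCharacter (G F m), 1 ≤ ((charDegree χ.1 : ℕ) : ℤ) := by
    intro χ
    obtain ⟨n, hn, h1⟩ := Cfsg.Agent.Lib.Char.Ortho.irr_degree_pos χ.2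
    rw [Cfsg.Agent.Lib.Char.Values.IsCharacter.charDegree_eq
      (Cfsg.Agent.Lib.Char.Basic.isCharacter_of_isIrrCharacter χ.2) h1]
    exact_mod_cast hn
  have hsum : ∑ χ : IrrCharacter (G F m), ((charDegree χ.1 : ℕ) : ℤ) ^ 2 =
      q ^ 2 * (q ^ 2 + 1) * (q - 1) := by
    have h1 := Cfsg.Agent.Lib.Char.CompleteCor.sum_sq_degrees (G := G F m)
    rw [card_G h] at h1
    have h2 : ((∑ χ : IrrCharacter (G F m), ((charDegree χ.1 : ℕ) : ℤ) ^ 2 : ℤ) : ℂ) =
        ((q ^ 2 * (q ^ 2 + 1) * (q - 1) : ℤ) : ℂ) := by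
      push_cast
      have h3 : ∀ χ : IrrCharacter (G F m), ((charDegree χ.1 : ℕ) : ℂ) ^ 2 = (χ : G F m → ℂ) 1 ^ 2 := by
        intro χ
        rw [Cfsg.Agent.Lib.Char.Values.IsCharacter.charDegree_cast
          (Cfsg.Agent.Lib.Char.Basic.isCharacter_of_isIrrCharacter χ.2)]
      simp only [h3]
      rw [h1]
      push_cast [Nat.cast_sub hFpos]
      rw [← hF]
      push_cast
      rfl
    exact_mod_cast h2
  -- values on the tori
  have hone_val : ∀ {A : Subgroup (G F m)} [Fintype A] (l : Lm A), gzL A l one = -1 := by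
    intro A _ l
    have := gz_const (s := 1) l one (fun x _ => by simp [one])
    simpa using this
  have hst0 : ∀ l : Lm (Dsub h), gzL (Dsub h) l st = -1 := by
    intro l
    have := gz_const (s := 1) l st (fun x hx => by
      obtain ⟨k, hk⟩ := x.2
      have hk1 : k ≠ 1 := by
        rintro rfl
        apply hx
        apply Subtype.ext
        rw [hk, Dg_one h]
        rfl
      rw [hstv, hk, fix_D h hk1]
      norm_num)
    simpa using this
  have hstT : ∀ (A : Tor F m) [Fintype A.1] (l : Lm A.1), gzL A.1 l st = 1 := by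
    intro A _ l
    have := gz_const (s := -1) l st (fun x hx => by
      have hf := tor_fpf h A x.2 (fun h => hx (Subtype.ext h))
      rw [hstv, fix_fpf hf]
      norm_num)
    simpa using this
  have key := Cfsg.Agent.Lib.SzChar.Num2.main2
    (X := IrrCharacter (G F m)) (fun χ => ((charDegree χ.1 : ℕ) : ℤ)) hdpos one st θ thb
    (by
      intro e
      have h1 := hdst
      rw [← e, hdone] at h1
      have h2 : (8 : ℤ) ^ 2 ≤ q ^ 2 := pow_le_pow_left₀ (by norm_num) hq8 2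
      push_cast at h1
      omega)
    (by intro e; apply hnth; rw [← e]; exact hrealone)
    (by intro e; apply hnthb; rw [← e]; exact hrealone)
    (by intro e; apply hnth; rw [← e]; exact hrealst)
    (by intro e; apply hnthb; rw [← e]; exact hrealst)
    (by
      intro e
      apply hθ
      have h1 : thb.1 u = θ.1 u := by rw [← e]
      exact h1)
    q r ((charDegree θ.1 : ℕ) : ℤ) hq8 hr2 hr0 hsum (by simp [hdone]) hdst rfl hdthb
    (gzL (Dsub h)) (gzL A1.1) (gzL A2.1) (relL (Dsub h)) (relL A1.1) (relL A2.1)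
    (fam hTD (card_NN_D h)) (fam hT1 hN1) (fam hT2 hN2) cD c1 c2
    (fun l => hone_val l) (fun l => hone_val l) (fun l => hone_val l) hst0 (hstT A1) (hstT A2)
    (fun l => gz_conj (real_D h) l θ thb (fun _ => rfl))
    (fun l => gz_conj (real_of_normalizer hT1 (odd_card_tor h A1) ⟨2 * Nat.card A1.1, by rw [hN1]; ring⟩) l θ thb (fun _ => rfl))
    (fun l => gz_conj (real_of_normalizer hT2 (odd_card_tor h A2) ⟨2 * Nat.card A2.1, by rw [hN2]; ring⟩) l θ thb (fun _ => rfl))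
    (fun l k => sum_gz_cross (not_conj_D_tor h A1) l.1 k.1)
    (fun l k => sum_gz_cross (not_conj_D_tor h A2) l.1 k.1)
    (fun l k => sum_gz_cross (not_conj_cop hcop12) l.1 k.1)
    (fun hv => by
      have := dvd_of_vanish hTD θ hv
      rwa [hcD] at this)
    (fun hv => by
      have := dvd_of_vanish hT1 θ hv
      rwa [hca1] at this)
    (fun hv => by
      have := dvd_of_vanish hT2 θ hv
      rwa [hca2] at this)
    hcop1 hcop2
  obtain ⟨E0, E1, E2, hE0, hE1, hE2, s0, s1, s2, -, -, -, ne01, ne02, ne12, ne0, ne1, ne2, cov, dE0, dE1,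
    dE2, ht, th0, th1, th2, c0', c1', c2'⟩ := key
  have h12 : one ≠ st := by
    intro e
    have h1 := hdst
    rw [← e, hdone] at h1
    have h2 : (8 : ℤ) ^ 2 ≤ q ^ 2 := pow_le_pow_left₀ (by norm_num) hq8 2
    push_cast at h1
    omega
  have h13 : one ≠ θ := by intro e; apply hnth; rw [← e]; exact hrealone
  have h14 : one ≠ thb := by intro e; apply hnthb; rw [← e]; exact hrealone
  have h23 : st ≠ θ := by intro e; apply hnth; rw [← e]; exact hrealst
  have h24 : st ≠ thb := by intro e; apply hnthb; rw [← e]; exact hrealst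
  have h34 : θ ≠ thb := by
    intro e
    apply hθ
    have h1 : thb.1 u = θ.1 u := by rw [← e]
    exact h1
  let I0 : Finset (IrrCharacter (G F m)) := (Finset.univ : Finset (Lm (Dsub h))).image E0
  let I1 : Finset (IrrCharacter (G F m)) := (Finset.univ : Finset (Lm A1.1)).image E1
  let I2 : Finset (IrrCharacter (G F m)) := (Finset.univ : Finset (Lm A2.1)).image E2
  have mem0 : ∀ χ, χ ∈ I0 → ∃ l, χ = E0 l := by
    intro χ hχ
    obtain ⟨l, -, rfl⟩ := Finset.mem_image.mp hχ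
    exact ⟨l, rfl⟩
  have mem1 : ∀ χ, χ ∈ I1 → ∃ l, χ = E1 l := by
    intro χ hχ
    obtain ⟨l, -, rfl⟩ := Finset.mem_image.mp hχ
    exact ⟨l, rfl⟩
  have mem2 : ∀ χ, χ ∈ I2 → ∃ l, χ = E2 l := by
    intro χ hχ
    obtain ⟨l, -, rfl⟩ := Finset.mem_image.mp hχ
    exact ⟨l, rfl⟩
  have hrR : (4 : ℝ) ≤ (r : ℝ) := by
    have h4 : (4 : ℤ) ≤ r := by
      rw [hr]
      calc (4 : ℤ) = 2 ^ 2 := by norm_num
        _ ≤ 2 ^ (m + 1) := pow_le_pow_right₀ (by norm_num) (by omega)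
    exact_mod_cast h4
  have hrqR : (r : ℝ) ^ 2 = 2 * (q : ℝ) := by exact_mod_cast hr2
  have deg_cast : ∀ χ : IrrCharacter (G F m), χ.1 1 = ((((charDegree χ.1 : ℕ) : ℤ) : ℝ) : ℂ) := by
    intro χ
    rw [← Cfsg.Agent.Lib.Char.Values.IsCharacter.charDegree_cast
      (Cfsg.Agent.Lib.Char.Basic.isCharacter_of_isIrrCharacter χ.2)]
    push_cast
    rfl
  have deg_eq : ∀ (χ : IrrCharacter (G F m)) (c : ℝ), (((charDegree χ.1 : ℕ) : ℤ) : ℝ) = c →
      χ.1 1 = (c : ℂ) := by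
    intro χ c hc
    rw [deg_cast, hc]
  have hdth : (((charDegree θ.1 : ℕ) : ℤ) : ℝ) = (r : ℝ) * ((q : ℝ) - 1) / 2 := by
    have h5 : ((2 * ((charDegree θ.1 : ℕ) : ℤ) : ℤ) : ℝ) = ((r * (q - 1) : ℤ) : ℝ) := by rw [ht]
    push_cast at h5 ⊢
    linarith
  have hsum_eq : ∀ f : IrrCharacter (G F m) → ℂ, ∑ χ, f χ = f one + f st + f θ + f thb +
      ∑ χ ∈ I0, f χ + ∑ χ ∈ I1, f χ + ∑ χ ∈ I2, f χ := by
    refine sum_part one st θ thb I0 I1 I2 h12 h13 h14 h23 h24 h34 ?_ ?_ ?_ ?_ ?_ ?_ ?_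
    · intro χ hχ
      obtain ⟨l, rfl⟩ := mem0 χ hχ
      exact ne0 l
    · intro χ hχ
      obtain ⟨l, rfl⟩ := mem1 χ hχ
      exact ne1 l
    · intro χ hχ
      obtain ⟨l, rfl⟩ := mem2 χ hχ
      exact ne2 l
    · rw [Finset.disjoint_left]
      intro χ h1 h2
      obtain ⟨l, rfl⟩ := mem0 χ h1
      obtain ⟨k, hk⟩ := mem1 _ h2
      exact ne01 l k hk
    · rw [Finset.disjoint_left]
      intro χ h1 h2
      obtain ⟨l, rfl⟩ := mem0 χ h1
      obtain ⟨k, hk⟩ := mem2 _ h2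
      exact ne02 l k hk
    · rw [Finset.disjoint_left]
      intro χ h1 h2
      obtain ⟨l, rfl⟩ := mem1 χ h1
      obtain ⟨k, hk⟩ := mem2 _ h2
      exact ne12 l k hk
    · intro χ
      rcases cov χ with e | e | e | e | ⟨l, e⟩ | ⟨l, e⟩ | ⟨l, e⟩
      · exact Or.inl e
      · exact Or.inr (Or.inl e)
      · exact Or.inr (Or.inr (Or.inl e))
      · exact Or.inr (Or.inr (Or.inr (Or.inl e)))
      · exact Or.inr (Or.inr (Or.inr (Or.inr (Or.inl (Finset.mem_image.mpr ⟨l, Finset.mem_univ _, e.symm⟩)))))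
      · exact Or.inr (Or.inr (Or.inr (Or.inr (Or.inr (Or.inl (Finset.mem_image.mpr ⟨l, Finset.mem_univ _, e.symm⟩))))))
      · exact Or.inr (Or.inr (Or.inr (Or.inr (Or.inr (Or.inr (Finset.mem_image.mpr ⟨l, Finset.mem_univ _, e.symm⟩))))))
  let tb : Tb (G F m) :=
    { one := one, st := st, th := θ, thb := thb, I0 := I0, I1 := I1, I2 := I2
      q := (q : ℝ), r := (r : ℝ), r4 := hrR, rq := hrqR, sum_eq := hsum_eq
      d_one := rfl
      d_st := deg_eq st _ (by rw [hdst]; push_cast; rfl)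
      d_th := deg_eq θ _ hdth
      d_thb := deg_eq thb _ (by rw [hdthb]; exact hdth)
      d0 := by
        intro χ hχ
        obtain ⟨l, rfl⟩ := mem0 χ hχ
        exact deg_eq _ _ (by rw [dE0 l]; push_cast; rfl)
      d1 := by
        intro χ hχ
        obtain ⟨l, rfl⟩ := mem1 χ hχ
        exact deg_eq _ _ (by rw [dE1 l]; push_cast; rfl)
      d2 := by
        intro χ hχ
        obtain ⟨l, rfl⟩ := mem2 χ hχ
        exact deg_eq _ _ (by rw [dE2 l]; push_cast; rfl)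
      n0 := by
        have h5 : ((2 * ((I0.card : ℕ) : ℤ) : ℤ) : ℝ) = ((q - 2 : ℤ) : ℝ) := by rw [← c0']
        push_cast at h5
        exact h5
      n1 := by
        have h5 : ((4 * ((I1.card : ℕ) : ℤ) : ℤ) : ℝ) = ((q + r : ℤ) : ℝ) := by rw [← c1']
        push_cast at h5
        exact h5
      n2 := by
        have h5 : ((4 * ((I2.card : ℕ) : ℤ) : ℤ) : ℝ) = ((q - r : ℤ) : ℝ) := by rw [← c2']
        push_cast at h5
        exact h5 }
  have hDne : ∀ k : Fˣ, k ≠ 1 → (⟨Dg h k, ⟨k, rfl⟩⟩ : Dsub h) ≠ 1 := by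
    intro k hk he
    have h1 : Dg h k = 1 := congrArg Subtype.val he
    apply hk
    apply Dg_inj h
    rw [h1, Dg_one h]
  have hwD : ∀ w, st.1 w = 0 → ∀ x : Dsub h, x ≠ 1 → ¬ IsConj w (x : G F m) := by
    intro w hw x hx hc
    have h1 := conj_val st hc
    rw [hw] at h1
    obtain ⟨k, hk⟩ := x.2
    have hk1 : k ≠ 1 := by
      rintro rfl
      apply hx
      apply Subtype.ext
      rw [hk, Dg_one h]
      rfl
    rw [hstv, hk, fix_D h hk1] at h1
    norm_num at h1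
  have hwT : ∀ (A : Tor F m) (w : G F m), st.1 w = 0 → ∀ x : A.1, x ≠ 1 → ¬ IsConj w (x : G F m) := by
    intro A w hw x hx hc
    have h1 := conj_val st hc
    rw [hw] at h1
    have hf := tor_fpf h A x.2 (fun h => hx (Subtype.ext h))
    rw [hstv, fix_fpf hf] at h1
    norm_num at h1
  have hreal1 := real_of_normalizer hT1 (odd_card_tor h A1) ⟨2 * Nat.card A1.1, by rw [hN1]; ring⟩
  have hreal2 := real_of_normalizer hT2 (odd_card_tor h A2) ⟨2 * Nat.card A2.1, by rw [hN2]; ring⟩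
  refine ⟨tb, A1, A2, ?_⟩
  refine
    { one_val := fun _ => rfl
      thb_val := fun _ => rfl
      st_val := hstv
      hq := ?_
      hr := ?_
      c1 := by rw [hca1, hq, hr]
      c2 := by rw [hca2, hq, hr]
      real1 := hreal1
      real2 := hreal2
      cover := hcover
      D_th := fun k hk => val_zero hTD θ (hDne k hk) th0
      D_i1 := ?_
      D_i2 := ?_
      A_th := ?_
      A_i0 := ?_
      A_i2 := ?_
      B_th := ?_
      B_i0 := ?_
      B_i1 := ?_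
      two_i0 := ?_
      two_i1 := ?_
      two_i2 := ?_ }
  · show (q : ℝ) = _
    rw [hq]
  · show (r : ℝ) = _
    rw [hr]
  · intro k hk χ hχ
    obtain ⟨k', rfl⟩ := mem1 χ hχ
    exact val_zero hTD _ (hDne k hk) (fun l => s0 l (E1 k') (ne1 k').1 (ne1 k').2.1 (ne01 l k').symm)
  · intro k hk χ hχ
    obtain ⟨k', rfl⟩ := mem2 χ hχ
    exact val_zero hTD _ (hDne k hk) (fun l => s0 l (E2 k') (ne2 k').1 (ne2 k').2.1 (ne02 l k').symm)
  · intro x hx hx1
    have h1 := val_const hT1 θ (x := ⟨x, hx⟩) (fun he => hx1 (congrArg Subtype.val he)) (b := -1) th1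
    simpa using h1
  · intro x hx hx1 χ hχ
    obtain ⟨k', rfl⟩ := mem0 χ hχ
    exact val_zero hT1 _ (x := ⟨x, hx⟩) (fun he => hx1 (congrArg Subtype.val he))
      (fun l => s1 l (E0 k') (ne0 k').1 (ne0 k').2.1 (ne0 k').2.2.1 (ne0 k').2.2.2 (ne01 k' l))
  · intro x hx hx1 χ hχ
    obtain ⟨k', rfl⟩ := mem2 χ hχ
    exact val_zero hT1 _ (x := ⟨x, hx⟩) (fun he => hx1 (congrArg Subtype.val he))
      (fun l => s1 l (E2 k') (ne2 k').1 (ne2 k').2.1 (ne2 k').2.2.1 (ne2 k').2.2.2 (ne12 l k').symm)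
  · intro x hx hx1
    have h1 := val_const hT2 θ (x := ⟨x, hx⟩) (fun he => hx1 (congrArg Subtype.val he)) (b := 1) th2
    simpa using h1
  · intro x hx hx1 χ hχ
    obtain ⟨k', rfl⟩ := mem0 χ hχ
    exact val_zero hT2 _ (x := ⟨x, hx⟩) (fun he => hx1 (congrArg Subtype.val he))
      (fun l => s2 l (E0 k') (ne0 k').1 (ne0 k').2.1 (ne0 k').2.2.1 (ne0 k').2.2.2 (ne02 k' l))
  · intro x hx hx1 χ hχ
    obtain ⟨k', rfl⟩ := mem1 χ hχ
    exact val_zero hT2 _ (x := ⟨x, hx⟩) (fun he => hx1 (congrArg Subtype.val he))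
      (fun l => s2 l (E1 k') (ne1 k').1 (ne1 k').2.1 (ne1 k').2.2.1 (ne1 k').2.2.2 (ne12 k' l))
  · intro w hw χ hχ
    obtain ⟨l, rfl⟩ := mem0 χ hχ
    have h1 := sum_gz_col (A := Dsub h) l.1 (hwD w hw)
    rw [sum_of_support' ({one, st} : Finset (IrrCharacter (G F m))) (E0 l)
      (by simp [(ne0 l).1, (ne0 l).2.1]) _ (fun χ h5 h6 => by
        simp only [Finset.mem_insert, Finset.mem_singleton, not_or] at h5
        have h7 : gz (Dsub h) l.1 χ = 0 := s0 l χ h5.1 h5.2 h6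
        rw [h7]
        simp), Finset.sum_pair h12] at h1
    have e1 : gz (Dsub h) l.1 one = -1 := hone_val l
    have e2 : gz (Dsub h) l.1 st = -1 := hst0 l
    have e3 : gz (Dsub h) l.1 (E0 l) = 1 := hE0 l
    rw [e1, e2, e3, hw] at h1
    have e4 : one.1 w = 1 := rfl
    rw [e4] at h1
    simp only [Int.cast_neg, Int.cast_one, map_one, map_zero] at h1
    have e5 : conj ((E0 l).1 w) = 1 := by linear_combination h1
    rw [← Complex.conj_conj ((E0 l).1 w), e5, map_one]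
  · intro w hw χ hχ
    obtain ⟨l, rfl⟩ := mem1 χ hχ
    have h1 := sum_gz_col (A := A1.1) l.1 (hwT A1 w hw)
    have hSp : ∀ g : IrrCharacter (G F m) → ℂ,
        ∑ χ ∈ ({one, st, θ, thb} : Finset (IrrCharacter (G F m))), g χ = g one + g st + g θ + g thb := by
      intro g
      rw [Finset.sum_insert (by simp [h12, h13, h14]), Finset.sum_insert (by simp [h23, h24]),
        Finset.sum_pair h34]
      ring
    rw [sum_of_support' ({one, st, θ, thb} : Finset (IrrCharacter (G F m))) (E1 l)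
      (by simp [(ne1 l).1, (ne1 l).2.1, (ne1 l).2.2.1, (ne1 l).2.2.2]) _ (fun χ h5 h6 => by
        simp only [Finset.mem_insert, Finset.mem_singleton, not_or] at h5
        have h7 : gz A1.1 l.1 χ = 0 := s1 l χ h5.1 h5.2.1 h5.2.2.1 h5.2.2.2 h6
        rw [h7]
        simp), hSp] at h1
    have e1 : gz A1.1 l.1 one = -1 := hone_val l
    have e2 : gz A1.1 l.1 st = 1 := hstT A1 l
    have e3 : gz A1.1 l.1 (E1 l) = -1 := hE1 l
    have e6 : gz A1.1 l.1 θ = -1 := th1 l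
    have e7 : gz A1.1 l.1 thb = -1 := by
      have h8 : gzL A1.1 l thb = gzL A1.1 l θ := gz_conj hreal1 l θ thb (fun _ => rfl)
      exact h8.trans (th1 l)
    rw [e1, e2, e3, e6, e7, hw] at h1
    have e4 : one.1 w = 1 := rfl
    have e8 : thb.1 w = conj (θ.1 w) := rfl
    rw [e4, e8] at h1
    simp only [Int.cast_neg, Int.cast_one, map_one, map_zero, Complex.conj_conj] at h1
    have e5 : conj ((E1 l).1 w) = -1 - conj (θ.1 w) - θ.1 w := by linear_combination -h1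
    rw [← Complex.conj_conj ((E1 l).1 w), e5]
    show _ = -1 - (θ.1 w + conj (θ.1 w))
    simp only [map_sub, map_neg, map_one, Complex.conj_conj]
    ring
  · intro w hw χ hχ
    obtain ⟨l, rfl⟩ := mem2 χ hχ
    have h1 := sum_gz_col (A := A2.1) l.1 (hwT A2 w hw)
    have hSp : ∀ g : IrrCharacter (G F m) → ℂ,
        ∑ χ ∈ ({one, st, θ, thb} : Finset (IrrCharacter (G F m))), g χ = g one + g st + g θ + g thb := by
      intro g
      rw [Finset.sum_insert (by simp [h12, h13, h14]), Finset.sum_insert (by simp [h23, h24]),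
        Finset.sum_pair h34]
      ring
    rw [sum_of_support' ({one, st, θ, thb} : Finset (IrrCharacter (G F m))) (E2 l)
      (by simp [(ne2 l).1, (ne2 l).2.1, (ne2 l).2.2.1, (ne2 l).2.2.2]) _ (fun χ h5 h6 => by
        simp only [Finset.mem_insert, Finset.mem_singleton, not_or] at h5
        have h7 : gz A2.1 l.1 χ = 0 := s2 l χ h5.1 h5.2.1 h5.2.2.1 h5.2.2.2 h6
        rw [h7]
        simp), hSp] at h1
    have e1 : gz A2.1 l.1 one = -1 := hone_val l
    have e2 : gz A2.1 l.1 st = 1 := hstT A2 l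
    have e3 : gz A2.1 l.1 (E2 l) = -1 := hE2 l
    have e6 : gz A2.1 l.1 θ = 1 := th2 l
    have e7 : gz A2.1 l.1 thb = 1 := by
      have h8 : gzL A2.1 l thb = gzL A2.1 l θ := gz_conj hreal2 l θ thb (fun _ => rfl)
      exact h8.trans (th2 l)
    rw [e1, e2, e3, e6, e7, hw] at h1
    have e4 : one.1 w = 1 := rfl
    have e8 : thb.1 w = conj (θ.1 w) := rfl
    rw [e4, e8] at h1
    simp only [Int.cast_neg, Int.cast_one, map_one, map_zero, Complex.conj_conj] at h1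
    have e5 : conj ((E2 l).1 w) = -1 + conj (θ.1 w) + θ.1 w := by linear_combination -h1
    rw [← Complex.conj_conj ((E2 l).1 w), e5]
    show _ = -1 + (θ.1 w + conj (θ.1 w))
    simp only [map_add, map_neg, map_one, Complex.conj_conj]
    ring

end

end Cfsg.Agent.Lib.SzChar.Table
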