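import Mathlib
import Cfsg.Agent.Lib.SzChar.Table
import Cfsg.Agent.Lib.Char.ClassPair
import Cfsg.Agent.Lib.Suzuki.Part

/-!
# The table of the Suzuki groups: the columns
-/

set_option autoImplicit false
set_option linter.unusedSectionVars false
set_option linter.style.haveILetI false
set_option linter.unusedSimpArgs false
set_option linter.deprecated false
set_option linter.unusedVariables false

namespace Cfsg.Agent.Lib.SzChar.Table2

open Cfsg Cfsg.Agent.Lib.SzChar.Torus Cfsg.Agent.Lib.SzChar.Main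
  Cfsg.Agent.Lib.SzChar.Vals Cfsg.Agent.Lib.SzChar.Class Cfsg.Agent.Lib.SzChar.Table
  Cfsg.Agent.Lib.Suzuki.Basic Cfsg.Agent.Lib.Suzuki.Group Cfsg.Agent.Lib.Suzuki.Struct
  Cfsg.Agent.Lib.Suzuki.Order Cfsg.Agent.Lib.Suzuki.Zass Cfsg.Agent.Lib.Suzuki.Sub
  Cfsg.Agent.Lib.Suzuki.Syl Cfsg.Agent.Lib.Suzuki.Gen Cfsg.Agent.Lib.Suzuki.Fix
  Cfsg.Agent.Lib.Suzuki.Cent Cfsg.Agent.Lib.Suzuki.Types Cfsg.Agent.Lib.Suzuki.Tori1
  Cfsg.Agent.Lib.Suzuki.Tori2 Cfsg.Agent.Lib.Suzuki.Tori3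
open scoped ComplexConjugate
open Finset

section Gen

variable {G : Type*} [Group G] [Fintype G] [Fintype (IrrCharacter G)]

/-- The column of an element. -/
def col (g : G) : IrrCharacter G → ℂ := fun χ => χ.1 g

theorem col_conj (c g : G) : col (c * g * c⁻¹) = col g := by
  funext χ
  exact Cfsg.Agent.Lib.Char.CompleteCor.isIrr_classFunction χ.2 _ _

theorem sum_real (t : Tb G) (φ : IrrCharacter G → ℝ) :
    ∑ χ, φ χ = φ t.one + φ t.st + φ t.th + φ t.thb + ∑ χ ∈ t.I0, φ χ + ∑ χ ∈ t.I1, φ χ +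
      ∑ χ ∈ t.I2, φ χ := by
  have h1 := t.sum_eq (fun χ => ((φ χ : ℝ) : ℂ))
  exact_mod_cast h1

/-- The norm of a column. -/
theorem norm_col (g : G) :
    ∑ χ : IrrCharacter G, ‖χ.1 g‖ ^ 2 = (Nat.card (Subgroup.centralizer ({g} : Set G)) : ℝ) := by
  have h1 := Cfsg.Agent.Lib.Char.CompleteCor.column_orth_conj (G := G) (IsConj.refl g)
  have h2 : ∀ χ : IrrCharacter G, (χ : G → ℂ) g * conj ((χ : G → ℂ) g) = ((‖χ.1 g‖ ^ 2 : ℝ) : ℂ) := by
    intro χ
    rw [Complex.mul_conj']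
    push_cast
    rfl
  simp only [h2] at h1
  exact_mod_cast h1

/-- Expansion of the norm of a column. -/
theorem norm_expand (t : Tb G) (g : G) :
    ‖t.one.1 g‖ ^ 2 + ‖t.st.1 g‖ ^ 2 + ‖t.th.1 g‖ ^ 2 + ‖t.thb.1 g‖ ^ 2 + ∑ χ ∈ t.I0, ‖col g χ‖ ^ 2 +
      ∑ χ ∈ t.I1, ‖col g χ‖ ^ 2 + ∑ χ ∈ t.I2, ‖col g χ‖ ^ 2 =
      (Nat.card (Subgroup.centralizer ({g} : Set G)) : ℝ) := by
  rw [← norm_col g, sum_real t (fun χ => ‖χ.1 g‖ ^ 2)]
  rfl

theorem sum_norm_zero {I : Finset (IrrCharacter G)} {v : IrrCharacter G → ℂ}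
    (h : ∀ χ ∈ I, v χ = 0) : ∑ χ ∈ I, ‖v χ‖ ^ 2 = 0 := by
  refine Finset.sum_eq_zero fun χ hχ => ?_
  rw [h χ hχ]
  simp

theorem sum_norm_real {I : Finset (IrrCharacter G)} {v : IrrCharacter G → ℂ} {c : ℝ}
    (h : ∀ χ ∈ I, v χ = (c : ℂ)) : ∑ χ ∈ I, ‖v χ‖ ^ 2 = (I.card : ℝ) * c ^ 2 := by
  rw [Finset.sum_congr rfl (fun χ hχ => by rw [h χ hχ, Complex.norm_real, Real.norm_eq_abs, sq_abs])]
  simp

end Gen

variable {F : Type*} [Field F] [Fintype F] {m : ℕ} {h : Hyp F m}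
variable [Fintype (G F m)] [Fintype (IrrCharacter (G F m))]
variable {t : Tb (G F m)} {A1 A2 : Tor F m}

/-- `q` is the order of the field. -/
theorem card_F_real (H : TT h t A1 A2) : (Fintype.card F : ℝ) = t.q := by
  rw [H.hq, h.hF]
  push_cast
  rfl

theorem isD (H : TT h t A1 A2) {k : Fˣ} (hk : k ≠ 1) : IsD t (col (Dg h k)) := by
  have hth := H.D_th k hk
  have hthb : t.thb.1 (Dg h k) = 0 := by rw [H.thb_val, hth, map_zero]
  have hst : t.st.1 (Dg h k) = 1 := by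
    rw [H.st_val, fix_D h hk]
    norm_num
  refine ⟨H.one_val _, hst, hth, hthb, H.D_i1 k hk, H.D_i2 k hk, ?_⟩
  have h1 := norm_expand t (Dg h k)
  have hC : Subgroup.centralizer ({Dg h k} : Set (G F m)) = Dsub h := by
    apply le_antisymm
    · intro y hy
      exact mem_D_of_comm h hk (Subgroup.mem_centralizer_singleton_iff.mp hy)
    · intro y hy
      apply Subgroup.mem_centralizer_singleton_iff.mpr
      exact (Dtorus h).comm _ hy _ ⟨k, rfl⟩
  rw [hC, card_Dsub h, Nat.cast_sub Fintype.card_pos, card_F_real H, H.one_val, hst, hth, hthb,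
    sum_norm_zero (v := col (Dg h k)) (H.D_i1 k hk), sum_norm_zero (v := col (Dg h k)) (H.D_i2 k hk)] at h1
  simp only [norm_one, norm_zero] at h1
  norm_num at h1
  linarith

theorem conj_inv_val {x : G F m} (hr : ∃ g : G F m, g * x * g⁻¹ = x⁻¹) (χ : IrrCharacter (G F m)) :
    conj (χ.1 x) = χ.1 x := by
  obtain ⟨g, hg⟩ := hr
  rw [← Cfsg.Agent.Lib.Char.Complete.isIrr_inv χ.2, ← hg]
  exact Cfsg.Agent.Lib.Char.CompleteCor.isIrr_classFunction χ.2 _ _

theorem card_A1_real (H : TT h t A1 A2) : (Nat.card A1.1 : ℝ) = t.q + t.r + 1 := by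
  have h1 := H.c1
  rw [H.hq, H.hr]
  have h2 : (((Nat.card A1.1 : ℕ) : ℤ) : ℝ) = ((2 ^ (2 * m + 1) + 2 ^ (m + 1) + 1 : ℤ) : ℝ) := by rw [h1]
  push_cast at h2 ⊢
  exact h2

theorem card_A2_real (H : TT h t A1 A2) : (Nat.card A2.1 : ℝ) = t.q - t.r + 1 := by
  have h1 := H.c2
  rw [H.hq, H.hr]
  have h2 : (((Nat.card A2.1 : ℕ) : ℤ) : ℝ) = ((2 ^ (2 * m + 1) - 2 ^ (m + 1) + 1 : ℤ) : ℝ) := by rw [h1]
  push_cast at h2 ⊢
  exact h2

theorem isA (H : TT h t A1 A2) {x : G F m} (hx : x ∈ A1.1) (hx1 : x ≠ 1) : IsA t (col x) := by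
  have hth := H.A_th x hx hx1
  have hthb : t.thb.1 x = 1 := by rw [H.thb_val, hth, map_one]
  have hst : t.st.1 x = -1 := by
    rw [H.st_val, fix_fpf (tor_fpf h A1 hx hx1)]
    norm_num
  refine ⟨H.one_val _, hst, hth, hthb, H.A_i0 x hx hx1, H.A_i2 x hx hx1,
    fun χ _ => conj_inv_val (H.real1 x hx) χ, ?_⟩
  have h1 := norm_expand t x
  rw [tor_cent h A1 hx hx1, card_A1_real H, H.one_val, hst, hth, hthb,
    sum_norm_zero (v := col x) (H.A_i0 x hx hx1), sum_norm_zero (v := col x) (H.A_i2 x hx hx1)] at h1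
  simp only [norm_one, norm_neg] at h1
  linarith

theorem isB (H : TT h t A1 A2) {x : G F m} (hx : x ∈ A2.1) (hx1 : x ≠ 1) : Cfsg.Agent.Lib.SzChar.Class.IsB t (col x) := by
  have hth := H.B_th x hx hx1
  have hthb : t.thb.1 x = -1 := by rw [H.thb_val, hth, map_neg, map_one]
  have hst : t.st.1 x = -1 := by
    rw [H.st_val, fix_fpf (tor_fpf h A2 hx hx1)]
    norm_num
  refine ⟨H.one_val _, hst, hth, hthb, H.B_i0 x hx hx1, H.B_i1 x hx hx1, ?_⟩
  have h1 := norm_expand t x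
  rw [tor_cent h A2 hx hx1, card_A2_real H, H.one_val, hst, hth, hthb,
    sum_norm_zero (v := col x) (H.B_i0 x hx hx1), sum_norm_zero (v := col x) (H.B_i1 x hx hx1)] at h1
  simp only [norm_one, norm_neg] at h1
  linarith

/-- The column of an element with vanishing Steinberg value. -/
theorem isTwo (H : TT h t A1 A2) {w : G F m} (hw : t.st.1 w = 0) :
    IsTwo t (col w) (2 * (t.th.1 w).re) := by
  have hadd : t.th.1 w + t.thb.1 w = ((2 * (t.th.1 w).re : ℝ) : ℂ) := by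
    rw [H.thb_val, Complex.add_conj]
  refine ⟨H.one_val _, hw, H.thb_val _, hadd, H.two_i0 w hw, ?_, ?_⟩
  · intro χ hχ
    show χ.1 w = _
    rw [H.two_i1 w hw χ hχ, hadd]
    push_cast
    ring
  · intro χ hχ
    show χ.1 w = _
    rw [H.two_i2 w hw χ hχ, hadd]
    push_cast
    ring

theorem st_Lg (H : TT h t A1 A2) {a b : F} (hne : a ≠ 0 ∨ b ≠ 0) : t.st.1 (Lg h a b) = 0 := by
  have h1 : MulAction.fixedBy (Om F m) (Lg h a b) = {oI} := by
    ext w
    simp only [MulAction.mem_fixedBy, Set.mem_singleton_iff]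
    constructor
    · exact Lg_fix_eq h hne
    · rintro rfl
      exact Lg_oI h a b
  rw [H.st_val, h1]
  simp

omit [Fintype (G F m)] [Fintype (IrrCharacter (G F m))] in
theorem card_cent_u (h : Hyp F m) {a : F} (ha : a ≠ 0) (b : F) :
    Nat.card (Subgroup.centralizer ({Lg h a b} : Set (G F m))) ≤ 2 * Fintype.card F := by
  classical
  have key : ∀ y : Subgroup.centralizer ({Lg h a b} : Set (G F m)),
      ∃ p : Bool × F, (y : G F m) = Lg h (if p.1 then a else 0) p.2 := by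
    intro y
    have hy := Subgroup.mem_centralizer_singleton_iff.mp y.2
    obtain ⟨c, d, hcd⟩ := mem_U_of_comm h (Or.inl ha) hy
    rw [hcd] at hy
    have h1 := (Lg_comm_iff h c d a b).mp hy
    have h2 : (c / a) ^ (2 ^ (m + 1)) = c / a := by
      have ha' : a ^ (2 ^ (m + 1)) ≠ 0 := pow_ne_zero _ ha
      rw [div_pow, div_eq_div_iff ha' ha]
      linear_combination h1
    rcases h.fixed_of_pow_sg h2 with h3 | h3
    · have h4 : c = 0 := by
        rcases div_eq_zero_iff.mp h3 with h5 | h5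
        · exact h5
        · exact absurd h5 ha
      exact ⟨(false, d), by simpa [h4] using hcd⟩
    · have h4 : c = a := (div_eq_one_iff_eq ha).mp h3
      exact ⟨(true, d), by simpa [h4] using hcd⟩
  choose f hf using key
  have hinj : Function.Injective f := by
    intro y y' he
    apply Subtype.ext
    rw [hf y, hf y', he]
  have h1 := Nat.card_le_card_of_injective f hinj
  have h2 : Nat.card (Bool × F) = 2 * Fintype.card F := by
    rw [Nat.card_prod]
    simp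
  rw [h2] at h1
  exact h1

omit [Fintype (G F m)] [Fintype (IrrCharacter (G F m))] in
theorem cent_z (h : Hyp F m) {b : F} (hb : b ≠ 0) :
    Nat.card (Subgroup.centralizer ({Lg h 0 b} : Set (G F m))) = Fintype.card F ^ 2 := by
  have hC : Subgroup.centralizer ({Lg h 0 b} : Set (G F m)) = Usub h := by
    apply le_antisymm
    · intro y hy
      exact mem_U_of_comm h (Or.inr hb) (Subgroup.mem_centralizer_singleton_iff.mp hy)
    · rintro y ⟨c, d, rfl⟩
      apply Subgroup.mem_centralizer_singleton_iff.mpr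
      exact (Lg_zero_comm h b c d).symm
  rw [hC, card_Usub h]

omit [Fintype (IrrCharacter (G F m))] in
theorem th_int (χ : IrrCharacter (G F m)) {z : G F m} (hz : z * z = 1) : ∃ n : ℤ, χ.1 z = (n : ℂ) := by
  obtain ⟨d, μ, -, hμ, hz'⟩ := Cfsg.Agent.Lib.Char.Values.IsCharacter.exists_roots
    (Cfsg.Agent.Lib.Char.Basic.isCharacter_of_isIrrCharacter χ.2) z
  have hd : orderOf z ∣ 2 := orderOf_dvd_of_pow_eq_one (by rw [sq, hz])
  obtain ⟨c, hc⟩ := hd
  have h1 : ∀ i, ∃ n : ℤ, μ i = (n : ℂ) := by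
    intro i
    have h2 : μ i ^ 2 = 1 := by rw [hc, pow_mul, hμ i, one_pow]
    have h3 : (μ i - 1) * (μ i + 1) = 0 := by linear_combination h2
    rcases mul_eq_zero.mp h3 with h4 | h4
    · exact ⟨1, by push_cast; linear_combination h4⟩
    · exact ⟨-1, by push_cast; linear_combination h4⟩
  choose n hn using h1
  refine ⟨∑ i, n i, ?_⟩
  rw [hz']
  push_cast
  exact Finset.sum_congr rfl fun i _ => hn i

/-- The value on a central involution. -/
theorem th_z (H : TT h t A1 A2) {b : F} (hb : b ≠ 0) :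
    t.th.1 (Lg h 0 b) = ((-t.r / 2 : ℝ) : ℂ) := by
  classical
  set z := Lg h 0 b with hzdef
  have hst : t.st.1 z = 0 := st_Lg H (Or.inr hb)
  have hT := isTwo H hst
  obtain ⟨n, hn⟩ := th_int t.th (z := z) (Lg_zero_sq h b)
  have hre : (t.th.1 z).re = (n : ℝ) := by
    rw [hn]
    simp
  rw [hre] at hT
  have hthb : t.thb.1 z = (n : ℂ) := by rw [H.thb_val, hn]; simp
  have h1 := norm_expand t z
  rw [sum_norm_real (c := 1) (v := col z) (fun χ hχ => by rw [hT.i0 χ hχ]; simp),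
    sum_norm_real (v := col z) hT.i1, sum_norm_real (v := col z) hT.i2, cent_z h hb, H.one_val, hst,
    hn, hthb] at h1
  have hq := t.rq
  have c0 : (t.I0.card : ℝ) = (t.q - 2) / 2 := by linarith [t.n0]
  have c1 : (t.I1.card : ℝ) = (t.q + t.r) / 4 := by linarith [t.n1]
  have c2 : (t.I2.card : ℝ) = (t.q - t.r) / 4 := by linarith [t.n2]
  have hnorm : ‖((n : ℤ) : ℂ)‖ ^ 2 = (n : ℝ) ^ 2 := by
    rw [← Complex.ofReal_intCast, Complex.norm_real, Real.norm_eq_abs, sq_abs]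
  rw [c0, c1, c2, hnorm] at h1
  push_cast at h1
  rw [card_F_real H] at h1
  simp only [norm_one, norm_zero] at h1
  have eqR : (2 * t.q + 2) * (n : ℝ) ^ 2 + 2 * t.r * n = t.q ^ 2 - t.q := by
    linear_combination h1
  -- integrality
  obtain ⟨Q, hQ⟩ : ∃ Q : ℤ, t.q = (Q : ℝ) := ⟨_, H.hq⟩
  obtain ⟨R, hR⟩ : ∃ R : ℤ, t.r = (R : ℝ) := ⟨_, H.hr⟩
  have hr4 := t.r4
  have hle := r_le hr4 hq
  rw [hQ, hR] at eqR hq hle
  rw [hR] at hr4
  have hZ : (2 * Q + 2) * n ^ 2 + 2 * R * n = Q ^ 2 - Q := by exact_mod_cast eqR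
  have hRQ : R ^ 2 = 2 * Q := by exact_mod_cast hq
  have hle' : 2 * R ≤ Q := by exact_mod_cast hle
  have hr4' : 4 ≤ R := by exact_mod_cast hr4
  have hfac : (2 * n + R) * (2 * (Q + 1) * n - R * (Q - 1)) = 0 := by
    linear_combination 2 * hZ - (Q - 1) * hRQ
  have h2n : 2 * n = -R := by
    rcases mul_eq_zero.mp hfac with h5 | h5
    · linarith
    · exfalso
      have h6 : (Q + 1) ∣ 2 * R := ⟨R - 2 * n, by linear_combination h5⟩
      have h7 := Int.le_of_dvd (by linarith) h6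
      linarith
  rw [hn, hR]
  have h8 : (n : ℝ) = -(R : ℝ) / 2 := by
    have : ((2 * n : ℤ) : ℝ) = ((-R : ℤ) : ℝ) := by rw [h2n]
    push_cast at this
    linarith
  rw [← Complex.ofReal_intCast, h8]

theorem tau_z (H : TT h t A1 A2) {b : F} (hb : b ≠ 0) : 2 * (t.th.1 (Lg h 0 b)).re = -t.r := by
  rw [th_z H hb, Complex.ofReal_re]
  ring

theorem u_sq_ne {a : F} (ha : a ≠ 0) (b : F) : Lg h a b * Lg h a b ≠ 1 := by
  rw [Lg_mul h, h.add_self, h.add_self, zero_add, ← Lg_zero h]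
  intro he
  obtain ⟨-, e2⟩ := Lg_inj h he
  exact (mul_ne_zero (pow_ne_zero _ ha) ha) e2

omit [Fintype (IrrCharacter (G F m))] in
theorem not_conj_uz {a : F} (ha : a ≠ 0) (b : F) : ¬ IsConj (Lg h a b) (Lg h 0 1) := by
  intro hc
  obtain ⟨c, hc⟩ := isConj_iff.mp hc
  apply u_sq_ne (h := h) ha b
  have h1 : Lg h 0 1 * Lg h 0 1 = 1 := Lg_zero_sq h 1
  rw [← hc] at h1
  have h2 : c * Lg h a b * c⁻¹ * (c * Lg h a b * c⁻¹) = c * (Lg h a b * Lg h a b) * c⁻¹ := by group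
  rw [h2] at h1
  have h3 : Lg h a b * Lg h a b = c⁻¹ * (c * (Lg h a b * Lg h a b) * c⁻¹) * c := by group
  rw [h3, h1]
  group

/-- The value on an element of order four. -/
theorem tau_u (H : TT h t A1 A2) {a : F} (ha : a ≠ 0) (b : F) :
    2 * (t.th.1 (Lg h a b)).re = 0 := by
  classical
  set u := Lg h a b with hudef
  set z := Lg h 0 (1 : F) with hzdef
  have h01 : (1 : F) ≠ 0 := one_ne_zero
  have hstu : t.st.1 u = 0 := st_Lg H (Or.inl ha)
  have hstz : t.st.1 z = 0 := st_Lg H (Or.inr h01)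
  have hTu := isTwo H hstu
  have hTz := isTwo H hstz
  rw [tau_z H h01] at hTz
  set τ := 2 * (t.th.1 u).re with hτ
  have h1 := Cfsg.Agent.Lib.Char.CompleteCor.column_orth_not_conj (not_conj_uz (h := h) ha b)
  rw [t.sum_eq] at h1
  have hzv : t.th.1 z = ((-t.r / 2 : ℝ) : ℂ) := th_z H h01
  have hzv' : conj (t.th.1 z) = ((-t.r / 2 : ℝ) : ℂ) := by rw [hzv, Complex.conj_ofReal]
  have hzb : conj (t.thb.1 z) = ((-t.r / 2 : ℝ) : ℂ) := by rw [H.thb_val, Complex.conj_conj, hzv]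
  have s0 : ∑ χ ∈ t.I0, (χ : G F m → ℂ) u * conj ((χ : G F m → ℂ) z) = (t.I0.card : ℂ) := by
    rw [Finset.sum_congr rfl (fun χ hχ => by
      rw [show (χ : G F m → ℂ) u = 1 from hTu.i0 χ hχ, show (χ : G F m → ℂ) z = 1 from hTz.i0 χ hχ])]
    simp
  have s1 : ∑ χ ∈ t.I1, (χ : G F m → ℂ) u * conj ((χ : G F m → ℂ) z) =
      (t.I1.card : ℂ) * (((-1 - τ) * (-1 - -t.r) : ℝ) : ℂ) := by
    rw [Finset.sum_congr rfl (fun χ hχ => by
      rw [show (χ : G F m → ℂ) u = _ from hTu.i1 χ hχ, show (χ : G F m → ℂ) z = _ from hTz.i1 χ hχ,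
        Complex.conj_ofReal, ← Complex.ofReal_mul])]
    simp
  have s2 : ∑ χ ∈ t.I2, (χ : G F m → ℂ) u * conj ((χ : G F m → ℂ) z) =
      (t.I2.card : ℂ) * (((-1 + τ) * (-1 + -t.r) : ℝ) : ℂ) := by
    rw [Finset.sum_congr rfl (fun χ hχ => by
      rw [show (χ : G F m → ℂ) u = _ from hTu.i2 χ hχ, show (χ : G F m → ℂ) z = _ from hTz.i2 χ hχ,
        Complex.conj_ofReal, ← Complex.ofReal_mul])]
    simp
  rw [s0, s1, s2, H.one_val, H.one_val, hstu, hzv', hzb] at h1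
  have hsum : t.th.1 u + t.thb.1 u = (τ : ℂ) := hTu.tau
  have h2 : ((1 + τ * (-t.r / 2) + (t.I0.card : ℝ) + (t.I1.card : ℝ) * ((-1 - τ) * (-1 - -t.r)) +
      (t.I2.card : ℝ) * ((-1 + τ) * (-1 + -t.r)) : ℝ) : ℂ) = 0 := by
    push_cast at h1 hsum ⊢
    simp only [map_one, mul_one, zero_mul, add_zero] at h1
    linear_combination h1 - (-(t.r : ℂ) / 2) * hsum
  have hE : 1 + τ * (-t.r / 2) + (t.I0.card : ℝ) + (t.I1.card : ℝ) * ((-1 - τ) * (-1 - -t.r)) +
      (t.I2.card : ℝ) * ((-1 + τ) * (-1 + -t.r)) = 0 := by exact_mod_cast h2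
  have c0 : (t.I0.card : ℝ) = (t.q - 2) / 2 := by linarith [t.n0]
  have c1 : (t.I1.card : ℝ) = (t.q + t.r) / 4 := by linarith [t.n1]
  have c2 : (t.I2.card : ℝ) = (t.q - t.r) / 4 := by linarith [t.n2]
  rw [c0, c1, c2] at hE
  have hq := t.rq
  have hr4 := t.r4
  have hq8 := q_ge hr4 hq
  have h3 : t.q * t.r * τ = 0 := by
    linear_combination (-2) * hE - hq
  have h4 : t.q * t.r ≠ 0 := by
    apply mul_ne_zero <;> linarith
  exact (mul_eq_zero.mp h3).resolve_left h4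

theorem isU (H : TT h t A1 A2) {a : F} (ha : a ≠ 0) (b : F) : IsU t (col (Lg h a b)) := by
  classical
  set u := Lg h a b with hudef
  have hstu : t.st.1 u = 0 := st_Lg H (Or.inl ha)
  have hTu := isTwo H hstu
  rw [tau_u H ha b] at hTu
  refine ⟨hTu, ?_⟩
  have h1 := norm_expand t u
  rw [sum_norm_real (c := 1) (v := col u) (fun χ hχ => by rw [hTu.i0 χ hχ]; simp),
    sum_norm_real (v := col u) hTu.i1, sum_norm_real (v := col u) hTu.i2, H.one_val, hstu,
    H.thb_val, RCLike.norm_conj] at h1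
  have h2 : (Nat.card (Subgroup.centralizer ({u} : Set (G F m))) : ℝ) ≤ 2 * t.q := by
    have h3 := card_cent_u h ha b
    rw [← card_F_real H]
    exact_mod_cast h3
  have c0 : (t.I0.card : ℝ) = (t.q - 2) / 2 := by linarith [t.n0]
  have c1 : (t.I1.card : ℝ) = (t.q + t.r) / 4 := by linarith [t.n1]
  have c2 : (t.I2.card : ℝ) = (t.q - t.r) / 4 := by linarith [t.n2]
  rw [c0, c1, c2] at h1
  simp only [norm_one, norm_zero] at h1
  show ‖t.th.1 u‖ ^ 2 ≤ t.q / 2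
  nlinarith

/-- Columns of elements of fixed-point-free type. -/
theorem col_fpf (H : TT h t A1 A2) {g : G F m} (hg1 : g ≠ 1) (hf : Fpf g) :
    IsA t (col g) ∨ Cfsg.Agent.Lib.SzChar.Class.IsB t (col g) := by
  have hmem : g ∈ (⟨cent g, ⟨g, hf, rfl⟩⟩ : Tor F m).1 := mem_cent.mpr rfl
  rcases H.cover ⟨cent g, ⟨g, hf, rfl⟩⟩ with ⟨y, hy⟩ | ⟨y, hy⟩
  · rw [hy, Cfsg.Agent.Lib.Suzuki.Tori2.coe_smul] at hmem
    obtain ⟨x', hx', he⟩ := hmem
    have he' : y * x' * y⁻¹ = g := he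
    rw [← he', col_conj]
    left
    refine isA H hx' ?_
    rintro rfl
    apply hg1
    rw [← he']
    group
  · rw [hy, Cfsg.Agent.Lib.Suzuki.Tori2.coe_smul] at hmem
    obtain ⟨x', hx', he⟩ := hmem
    have he' : y * x' * y⁻¹ = g := he
    rw [← he', col_conj]
    right
    refine isB H hx' ?_
    rintro rfl
    apply hg1
    rw [← he']
    group

/-- The columns of nontrivial elements. -/
theorem col_g (H : TT h t A1 A2) {g : G F m} (hg : g ≠ 1) :
    (∃ τ, IsTwo t (col g) τ ∧ (τ = 0 ∨ τ = -t.r)) ∨ IsD t (col g) ∨ IsA t (col g) ∨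
      Cfsg.Agent.Lib.SzChar.Class.IsB t (col g) := by
  rcases Cfsg.Agent.Lib.Suzuki.Part.trichotomy h hg with ⟨x, a, b, hne, rfl⟩ | ⟨x, k, hk, rfl⟩ | hf
  · rw [col_conj]
    left
    by_cases ha : a = 0
    · subst ha
      have hb : b ≠ 0 := hne.resolve_left (fun h => h rfl)
      have hT := isTwo H (st_Lg H (a := 0) (Or.inr hb))
      rw [tau_z H hb] at hT
      exact ⟨_, hT, Or.inr rfl⟩
    · exact ⟨0, (isU H ha b).two, Or.inl rfl⟩
  · rw [col_conj]
    exact Or.inr (Or.inl (isD H hk))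
  · rcases col_fpf H hg hf with h1 | h1
    · exact Or.inr (Or.inr (Or.inl h1))
    · exact Or.inr (Or.inr (Or.inr h1))

/-- The columns of elements of order greater than two. -/
theorem col_x (H : TT h t A1 A2) {x : G F m} (hx : 2 < orderOf x) :
    IsU t (col x) ∨ IsD t (col x) ∨ IsA t (col x) ∨ Cfsg.Agent.Lib.SzChar.Class.IsB t (col x) := by
  have hx1 : x ≠ 1 := by
    rintro rfl
    rw [orderOf_one] at hx
    omega
  rcases Cfsg.Agent.Lib.Suzuki.Part.trichotomy h hx1 with ⟨c, a, b, hne, rfl⟩ | ⟨c, k, hk, rfl⟩ | hf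
  · rw [col_conj]
    left
    by_cases ha : a = 0
    · exfalso
      subst ha
      have h1 : (c * Lg h 0 b * c⁻¹) ^ 2 = 1 := by
        have h2 : (c * Lg h 0 b * c⁻¹) ^ 2 = c * (Lg h 0 b * Lg h 0 b) * c⁻¹ := by
          rw [sq]
          group
        rw [h2, Lg_zero_sq h]
        group
      have h3 := orderOf_le_of_pow_eq_one (by norm_num) h1
      omega
    · exact isU H ha b
  · rw [col_conj]
    exact Or.inr (Or.inl (isD H hk))
  · rcases col_fpf H hx1 hf with h1 | h1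
    · exact Or.inr (Or.inr (Or.inl h1))
    · exact Or.inr (Or.inr (Or.inr h1))

/-- The main theorem: squares of classes. -/
theorem exists_conj_pair (h : Hyp F m) {x g : G F m} (hx : 2 < orderOf x) (hg : g ≠ 1) :
    ∃ u v : G F m, g = (u * x * u⁻¹) * (v * x * v⁻¹) := by
  classical
  obtain ⟨t, A1, A2, H⟩ := exists_TT h
  have h1 := T_ne (t := t) (col_x H hx) (col_g H hg)
  have h2 := Cfsg.Agent.Lib.Char.ClassPair.card_pairs_eq_sum x x g
  have h3 : ((Finset.univ.filter fun a : G F m × G F m =>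
      a.1 * x * a.1⁻¹ * (a.2 * x * a.2⁻¹) = g).card : ℂ) ≠ 0 := by
    rw [h2]
    apply mul_ne_zero
    · exact_mod_cast Nat.card_pos.ne'
    · exact h1
  have h4 : (Finset.univ.filter fun a : G F m × G F m =>
      a.1 * x * a.1⁻¹ * (a.2 * x * a.2⁻¹) = g).Nonempty := by
    rw [Finset.nonempty_iff_ne_empty]
    intro he
    rw [he] at h3
    simp at h3
  obtain ⟨a, ha⟩ := h4
  exact ⟨a.1, a.2, (Finset.mem_filter.mp ha).2.symm⟩

end Cfsg.Agent.Lib.SzChar.Table2
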